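import Cfsg.Agent.H20.Pw0

/-! Piece N6 of S5767: for `|U| ≥ 6` an element of `H` fixing a slice pointwise acts on one coordinate only. -/

set_option autoImplicit false
set_option linter.unusedSectionVars false

namespace H27.PwN6

open Equiv Function H20.Pw

theorem ok_smul {G X U W : Type} [Group G] [MulAction G X] [Fintype U] [DecidableEq U] {s : U × W ≃ X}
    (h : Ok G s) (g : G) : Ok G (s.trans (MulAction.toPerm g)) := by
  refine ⟨fun σ hσ => ?_, fun y d hy => ?_⟩
  · obtain ⟨x, hx⟩ := h.1 σ hσ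
    refine ⟨g * x * g⁻¹, fun u w => ?_⟩
    simp only [Equiv.trans_apply, MulAction.toPerm_apply, mul_smul, inv_smul_smul, hx u w]
  · obtain ⟨σ, hσ⟩ := h.2 (g⁻¹ * y * g) d fun w => by
      have := hy w
      simp only [Equiv.trans_apply, MulAction.toPerm_apply] at this
      rw [mul_smul, mul_smul, this, inv_smul_smul]
    refine ⟨σ, fun u w => ?_⟩
    simp only [Equiv.trans_apply, MulAction.toPerm_apply]
    rw [← hσ u w, mul_smul, mul_smul, smul_inv_smul]

theorem exists_three {V : Type} [Fintype V] [DecidableEq V] (h : 4 ≤ Fintype.card V) {u u' : V} (ne : u ≠ u') :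
    ∃ τ : Perm V, τ.IsThreeCycle ∧ τ u = u ∧ τ u' ≠ u' := by
  have h1 : 1 < (Finset.univ \ {u, u'}).card := by
    rw [Finset.card_univ_diff, Finset.card_pair ne]; omega
  obtain ⟨a, ha, b, hb, ab⟩ := Finset.one_lt_card.1 h1
  simp only [Finset.mem_sdiff, Finset.mem_univ, Finset.mem_insert, Finset.mem_singleton, true_and,
    not_or] at ha hb
  refine ⟨swap u' a * swap u' b, Perm.isThreeCycle_swap_mul_swap_same (Ne.symm ha.2) (Ne.symm hb.2) ab, ?_, ?_⟩
  · rw [Perm.mul_apply, swap_apply_of_ne_of_ne ne (Ne.symm hb.1), swap_apply_of_ne_of_ne ne (Ne.symm ha.1)]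
  · rw [Perm.mul_apply, swap_apply_left, swap_apply_of_ne_of_ne hb.2 (Ne.symm ab)]
    exact hb.2

section
variable {ι U : Type} [Fintype ι] [DecidableEq ι] [Fintype U] [DecidableEq U]

/-- the pointwise stabilizer of the slice `f i = d` -/
def MM (H : Subgroup (Perm (ι → U))) (i : ι) (d : U) : Subgroup (Perm (ι → U)) where
  carrier := {g | g ∈ H ∧ ∀ f, f i = d → g f = f}
  one_mem' := ⟨H.one_mem, fun _ _ => rfl⟩
  mul_mem' := fun {a b} ha hb => ⟨H.mul_mem ha.1 hb.1, fun f hf => by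
    rw [Perm.mul_apply, hb.2 f hf, ha.2 f hf]⟩
  inv_mem' := fun {a} ha => ⟨H.inv_mem ha.1, fun f hf => by
    rw [Perm.inv_eq_iff_eq, ha.2 f hf]⟩

instance act (H : Subgroup (Perm (ι → U))) (i : ι) (d : U) : MulAction (MM H i d) {f : ι → U // f i ≠ d} where
  smul g f := ⟨g.1 f.1, fun e => f.2 (by
    have := g.1.injective (g.2.2 _ e)
    rwa [this] at e)⟩
  one_smul _ := rfl
  mul_smul _ _ _ := rfl

theorem smul_val {H : Subgroup (Perm (ι → U))} {i : ι} {d : U} (g : MM H i d) (f : {f : ι → U // f i ≠ d}) :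
    (g • f).1 = g.1 f.1 := rfl

/-- the natural product structure -/
def ss (i : ι) (d : U) : {u : U // u ≠ d} × {f : ι → U // f i = d} ≃ {f : ι → U // f i ≠ d} where
  toFun p := ⟨update p.2.1 i p.1.1, by simpa using p.1.2⟩
  invFun f := (⟨f.1 i, f.2⟩, ⟨update f.1 i d, by simp⟩)
  left_inv p := by
    obtain ⟨⟨u, hu⟩, ⟨w, hw⟩⟩ := p
    simp [← hw]
  right_inv f := by simp

theorem ss_val (i : ι) (d : U) (u : {u : U // u ≠ d}) (w : {f : ι → U // f i = d}) :
    (ss i d (u, w)).1 = update w.1 i u.1 := rfl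

theorem ok_ss (h2 : PN2) {H : Subgroup (Perm (ι → U))} (hH : Hy H) (h6 : 6 ≤ Fintype.card U) (i : ι) (d : U) :
    Ok (MM H i d) (ss i d) := by
  refine ⟨fun σ hσ => ?_, fun g e hg => ?_⟩
  · refine ⟨⟨co i (Perm.ofSubtype σ), hH.ev i _ ?_, fun f hf => co_fix.2 ?_⟩, fun u w => Subtype.ext ?_⟩
    · rw [Perm.mem_alternatingGroup, Perm.sign_ofSubtype, hσ.sign]
    · exact Perm.ofSubtype_apply_of_not_mem σ (by simp [hf])
    · rw [smul_val, ss_val, ss_val, co_apply]
      simp
  · obtain ⟨τ, hτ⟩ := h2 ι U H hH h6 i d e (Ne.symm e.2) g g.2.1 fun f hf => by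
      rcases hf with hf | hf
      · exact g.2.2 f hf
      · have := congrArg Subtype.val (hg ⟨update f i d, by simp⟩)
        rw [smul_val, ss_val] at this
        simpa [← hf] using this
    have hd : τ d = d := by
      have := g.2.2 (fun _ => d) rfl
      rw [hτ] at this
      exact co_fix.1 this
    refine ⟨τ.subtypePerm fun x => ?_, fun u w => Subtype.ext ?_⟩
    · exact not_congr ⟨fun h => τ.injective (h.trans hd.symm), fun h => h ▸ hd⟩
    · rw [smul_val, ss_val, ss_val, hτ, co_apply]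
      simp

end

theorem pN6 (hG : PGood) (h2 : PN2) (h6 : P6) : PN6 := by
  intro ι U _ _ _ _ H hH hU i d g hg hd
  have ok := ok_ss h2 hH hU i d
  have c5 : 5 ≤ Fintype.card {u : U // u ≠ d} := by
    rw [Fintype.card_subtype_compl, Fintype.card_subtype_eq]; omega
  let g' : MM H i d := ⟨g, hg, hd⟩
  have pt : ∀ f : ι → U, ∀ h : f i ≠ d, f = (ss i d (⟨f i, h⟩, ⟨update f i d, by simp⟩)).1 := fun f h => by
    rw [ss_val]; simp
  -- a slice-permuting element of `MM` acts on the coordinate `i` only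
  have key : ∀ y : MM H i d, ∀ α : {u : U // u ≠ d} → {u : U // u ≠ d}, Injective α →
      (∀ f (h : f i ≠ d), y.1 f i = α ⟨f i, h⟩) → ∀ f (h : f i ≠ d), y.1 f = update f i (α ⟨f i, h⟩) := by
    intro y α hα hy f h
    obtain ⟨b, hb⟩ := Fintype.exists_ne_of_one_lt_card (α := {u : U // u ≠ d}) (by omega) ⟨f i, h⟩
    refine h6 ι U H hH i d (f i) b (α ⟨f i, h⟩) (α b) h b.2 (fun e => hb (Subtype.ext e.symm))
      (fun e => hb (hα (Subtype.ext e)).symm) y y.2.1 y.2.2 (fun f' e => ?_) (fun f' e => ?_) f rfl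
    · rw [hy f' (e ▸ h)]; simp [e]
    · rw [hy f' (e ▸ b.2)]; simp [e]
  rcases hG _ _ _ _ c5 _ _ ok (ok_smul ok g') with ⟨α, ρ, h⟩ | h
  · refine ⟨Perm.ofSubtype α, Equiv.ext fun f => ?_⟩
    by_cases e : f i = d
    · rw [hd f e, eq_comm, co_fix]
      exact Perm.ofSubtype_apply_of_not_mem α (by simp [e])
    · rw [co_apply, Perm.ofSubtype_apply_of_mem α e]
      refine key g' α α.injective (fun f e => ?_) f e
      have := congrArg Subtype.val (h ⟨f i, e⟩ ⟨update f i d, by simp⟩)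
      rw [Equiv.trans_apply, MulAction.toPerm_apply, smul_val, ← pt f e, ss_val] at this
      rw [this]; simp
  · exfalso
    obtain ⟨u, u', ne⟩ := Fintype.exists_pair_of_one_lt_card (α := {u : U // u ≠ d}) (by omega)
    obtain ⟨σ, hσ, -, hu⟩ := exists_three (by omega) ne
    obtain ⟨y, hy⟩ := (ok_smul ok g').1 σ hσ
    have sl : ∀ f (e : f i ≠ d), y.1 f i = (id (⟨f i, e⟩ : {u : U // u ≠ d})).1 := fun f e => by
      by_contra ne'
      obtain ⟨τ, hτ, t1, t2⟩ := exists_three (V := {u : U // u ≠ d}) (by omega) (u := ⟨f i, e⟩)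
        (u' := ⟨y.1 f i, (y • (⟨f, e⟩ : {f : ι → U // f i ≠ d})).2⟩) fun e' => ne' (congrArg Subtype.val e').symm
      obtain ⟨x, hx⟩ := ok.1 τ hτ
      have k : ∀ p : {f : ι → U // f i ≠ d}, x • p = p ↔ τ ⟨p.1 i, p.2⟩ = ⟨p.1 i, p.2⟩ := fun p => by
        obtain ⟨⟨a, w⟩, rfl⟩ := (ss i d).surjective p
        have : (⟨(ss i d (a, w)).1 i, (ss i d (a, w)).2⟩ : {u : U // u ≠ d}) = a :=
          Subtype.ext (show update w.1 i a.1 i = a.1 by simp)
        rw [hx, this, (ss i d).apply_eq_iff_eq]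
        simp
      have := h x y τ σ hτ hσ hx hy ⟨f, e⟩
      rw [(k ⟨f, e⟩).2 t1] at this
      exact t2 ((k _).1 this)
    have triv := key y id injective_id sl
    have := hy u' ⟨fun _ => d, rfl⟩
    have e2 : ∀ p : {f : ι → U // f i ≠ d}, y • p = p := fun p => Subtype.ext (by
      rw [smul_val, triv p.1 p.2]; simp)
    rw [e2, Equiv.apply_eq_iff_eq] at this
    exact hu (congrArg Prod.fst this).symm

end H27.PwN6
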