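import Cfsg.Agent.S0618
import Cfsg.Agent.H10.SL
import Cfsg.Agent.H17.Fact
import Cfsg.Agent.H17.FStar

/-! Prime divisors of automizers of `p`-subgroups: `{p,q}`-overgroups of a Sylow subgroup of a `p`-solvable group
(`pq_of_min`), Thompson factorization for a prime divisor `q` (`dvd_nW`), and the transfer of a prime `q` to the
automizer of a subgroup normal in a Sylow subgroup (`main`). -/

set_option autoImplicit false
set_option linter.unusedSectionVars false

namespace H27.AutQ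

open H17 Subgroup Cfsg
open scoped commutatorElement

universe u

local notation:max "N(" H ")" => Subgroup.normalizer (SetLike.coe (H : Subgroup _))
local notation:max "C(" H ")" => Subgroup.centralizer (SetLike.coe (H : Subgroup _))

variable {G : Type*} [Group G] [Finite G] {p q : ℕ} [hp : Fact p.Prime] [hq : Fact q.Prime]

/-- `J(P)` or `Ω₁(Z(P))` -/
def W (p : ℕ) (b : Bool) (P : Subgroup G) : Subgroup G :=
  bif b then thompsonSubgroupOf p P else omegaOne p (P ⊓ C(P))

theorem map_W_inj {G' : Type*} [Group G'] {f : G →* G'} (hf : Function.Injective f) (b : Bool) (P : Subgroup G) :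
    (W p b P).map f = W p b (P.map f) := by
  cases b
  · simp only [W, cond_false]
    rw [H26.map_omegaOne hf, H26.map_inf_centralizer hf]
  · exact H4.map_thompsonOf hf P

theorem map_W {G' : Type*} [Group G'] {f : G →* G'} {P : Subgroup G} (h : P ⊓ f.ker = ⊥) (b : Bool) :
    (W p b P).map f = W p b (P.map f) := by
  conv => enter [1, 2, 3]; rw [← H26.map_subtype_top P]
  rw [← map_W_inj P.subtype_injective, map_map, map_W_inj (H4.injective_comp_subtype h), ← map_map,
    H26.map_subtype_top]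

theorem W_le (b : Bool) (P : Subgroup G) : W p b P ≤ P := by
  cases b
  · exact (H26.omegaOne_le _ _).trans inf_le_left
  · exact H4.thompsonOf_le _ _

theorem N_le_W (b : Bool) (P : Subgroup G) : N(P) ≤ N(W p b P) := by
  cases b
  · exact H26.le_normalizer_omegaOne_center le_rfl
  · exact H4.normalizer_le_normalizer_thompsonOf _ _

theorem W_ne (b : Bool) {P : Subgroup G} (hP : IsPGroup p P) (h : P ≠ ⊥) : W p b P ≠ ⊥ := by
  cases b
  · exact H26.omegaOne_center_ne_bot hP h
  · obtain ⟨z, hz, e⟩ := exists_orderOf_of_ne_bot hP h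
    exact H4.thompsonOf_ne_bot hz (fun e' => hp.out.ne_one (by rw [← e, e', orderOf_one])) (e ▸ pow_orderOf_eq_one z)

theorem exists_of_dvd {C M : Subgroup G} (h : q ∣ C.relIndex M) : ∃ X ≤ M, IsPGroup q X ∧ ¬ X ≤ C := by
  obtain ⟨X, hX⟩ := exists_isSyl q M
  refine ⟨X, hX.le, hX.pgroup, fun e => hX.not_dvd_relIndex (le_inf e hX.le) ?_⟩
  rwa [inf_relIndex_right]

theorem dvd_of_exists {C M X : Subgroup G} (hn : M ≤ N(C)) (h1 : X ≤ M) (h2 : IsPGroup q X) (h3 : ¬ X ≤ C) :
    q ∣ C.relIndex M := by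
  by_contra h
  rw [← inf_relIndex_right] at h
  exact h3 (((Subn.of_normal inf_le_right (le_normalizer_inf hn le_normalizer)).pgroup_le h h2 h1).trans inf_le_left)

theorem dvd_card_top {H K : Subgroup G} {r : ℕ} (hr : r.Prime) (h : H ≤ N(K)) (e : H ⊔ K = ⊤) (hd : r ∣ Nat.card G) :
    r ∣ Nat.card H ∨ r ∣ Nat.card K := by
  have := card_sup_dvd h
  rw [e, card_top] at this
  exact (Nat.Prime.dvd_mul hr).1 (hd.trans this)

theorem card_quot_lt {N : Subgroup G} (h : N ≠ ⊥) : Nat.card (G ⧸ N) < Nat.card G := by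
  rw [card_eq_card_quotient_mul_card_subgroup N]
  exact lt_mul_of_one_lt_right Nat.card_pos ((one_lt_card_iff_ne_bot N).2 h)

theorem eq_of_dvd {P : Subgroup G} (hP : IsPGroup p P) {r : ℕ} (hr : r.Prime) (h : r ∣ Nat.card P) : r = p := by
  obtain ⟨k, hk⟩ := hP.exists_card_eq
  exact (Nat.prime_dvd_prime_iff_eq hr hp.out).1 (hr.dvd_of_dvd_pow (hk ▸ h))

theorem pq_of_min0 (hs : H4.PSol p (⊤ : Subgroup G)) (hO : pCore p G = ⊥) {P : Subgroup G} (hP : IsSyl p P ⊤)
    (hd : q ∣ Nat.card G) (hm : ∀ Y, P ≤ Y → q ∣ Nat.card Y → Y = ⊤) (r : ℕ) (hr : r.Prime)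
    (h : r ∣ Nat.card G) : r = p ∨ r = q := by
  by_cases hD : q ∣ Nat.card (pPrimeCore p G)
  · obtain ⟨T, hT, n⟩ := (Cop.of_pgroup hP.pgroup (pPrimeCore_not_dvd G p) le_normalizer_of_normal).exists_isSyl q
    have h1 : q ∣ Nat.card T := dvd_card_of_pgroup_ne_bot hT.pgroup fun e => hT.eq_bot_iff.1 e hD
    exact (dvd_card_top hr n (hm _ le_sup_left (h1.trans (card_dvd_of_le le_sup_right))) h).imp
      (eq_of_dvd hP.pgroup hr) (eq_of_dvd hT.pgroup hr)
  exfalso
  let g := QuotientGroup.mk' (pPrimeCore p G)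
  have hPg : IsSyl p (P.map g) ⊤ := map_mk'_top (pPrimeCore p G) ▸ hP.map g
  have e : ((pCore p (G ⧸ pPrimeCore p G)).comap g ⊓ P).map g = pCore p _ :=
    map_comap_inf g (by rw [← oP_top]; exact hPg.oP_le)
  have h1 := H4.sup_normalizer_eq_top_of_map (N := pPrimeCore p G) (P := (pCore p (G ⧸ pPrimeCore p G)).comap g ⊓ P)
    (hP.pgroup.to_le inf_le_right) (coprime_iff_not_dvd.2 (pPrimeCore_not_dvd G p)) (e.symm ▸ inferInstance)
  rw [sup_comm] at h1
  have h2 := hm _ (le_normalizer_inf le_normalizer_of_normal le_normalizer)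
    ((dvd_card_top hq.out le_normalizer_of_normal h1 hd).resolve_right hD)
  have h3 := le_oP le_top h2.ge (hP.pgroup.to_le inf_le_right)
  rw [oP_top, hO, le_bot_iff] at h3
  rw [h3, Subgroup.map_bot] at e
  have h4 := (hs.quotient (pPrimeCore p G)).centralizer_pCore_le (pPrimeCore_quotient G p)
  rw [← e] at h4
  have h5 : (⊤ : Subgroup G) ≤ pPrimeCore p G := map_mk'_eq_bot_iff.1 (le_bot_iff.1 (le_trans
    (le_centralizer_of_commutator_eq_bot (commutator_bot_right _)) h4))
  exact hD (hd.trans (card_top (G := G) ▸ card_dvd_of_le h5))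

theorem pq_of_min (hpq : p ≠ q) (hs : H4.PSol p (⊤ : Subgroup G)) {P : Subgroup G} (hP : IsSyl p P ⊤)
    (hd : q ∣ Nat.card G) (hm : ∀ Y, P ≤ Y → q ∣ Nat.card Y → Y = ⊤) (r : ℕ) (hr : r.Prime)
    (h : r ∣ Nat.card G) : r = p ∨ r = q := by
  let g := QuotientGroup.mk' (pCore p G)
  have hc : ∀ r : ℕ, r.Prime → r ∣ Nat.card G → r = p ∨ r ∣ Nat.card (G ⧸ pCore p G) := fun r hr h => by
    rw [card_eq_card_quotient_mul_card_subgroup (pCore p G), hr.dvd_mul] at h
    exact h.symm.imp_left (eq_of_dvd (pCore_isPGroup G p) hr)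
  have hPg : IsSyl p (P.map g) ⊤ := map_mk'_top (pCore p G) ▸ hP.map g
  refine (hc r hr h).elim Or.inl (pq_of_min0 (hs.quotient _) (pCore_quotient G p)
    hPg ((hc q hq.out hd).resolve_left hpq.symm) (fun Y a b => ?_) r hr)
  have e : (Y.comap g).map g = Y := map_comap_eq_self_of_surjective (QuotientGroup.mk'_surjective (pCore p G)) Y
  have e2 : Nat.card ((Y.comap g).map g) ∣ Nat.card (Y.comap g) := card_map_dvd _ _
  rw [e] at e2
  rw [← e, hm _ (map_le_iff_le_comap.1 a) (b.trans e2), map_mk'_top]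

theorem dvd_nW (hpq : p ≠ q) (h23 : ¬ ((p = 2 ∧ q = 3) ∨ (p = 3 ∧ q = 2))) (n : ℕ) :
    ∀ (G : Type u) [Group G] [Finite G], Nat.card G = n → H4.PSol p (⊤ : Subgroup G) → C(pCore p G) ≤ pCore p G →
      q ∣ Nat.card G → ∀ P : Subgroup G, IsSyl p P ⊤ → ∃ b, q ∣ Nat.card N(W p b P) := by
  induction n using Nat.strong_induction_on with
  | _ n ih =>
  intro G _ _ hn hs hC hd P hP
  have hOP : pCore p G ≤ P := by rw [← oP_top]; exact hP.oP_le
  by_cases hm : ∀ Y, P ≤ Y → q ∣ Nat.card Y → Y = ⊤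
  · have hpq' := pq_of_min hpq hs hP hd hm
    have hO : pPrimeCore p G = ⊥ := eq_bot_of_pgroup_of_not_dvd ((pCore_isPGroup G p).to_le (le_trans
      (le_centralizer_of_commutator_eq_bot' (by rw [← oP_top, ← oQ_top]; exact commutator_oP_oQ ⊤)) hC))
      (pPrimeCore_not_dvd G p)
    have hf : IsThompsonFactorizable p G := by
      by_contra hf
      obtain ⟨h1, E, -, -, -, _, ⟨e⟩⟩ := Cfsg.Agent.S0618.result (H4.isPSolvable_iff.2 hs) hO hf
      have h2 : Nat.card (Matrix.SpecialLinearGroup (Fin 2) (ZMod p)) ∣ Nat.card G :=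
        (Nat.card_congr e.toEquiv ▸ card_quotient_dvd_card _).trans (card_subgroup_dvd_card E)
      rw [H10.card_SL2, ZMod.card] at h2
      have h6 : 6 ∣ Nat.card G := by
        rcases h1 with rfl | rfl
        · exact h2
        · exact (by norm_num : 6 ∣ 3 * (3 - 1) * (3 + 1)).trans h2
      have a := hpq' 2 Nat.prime_two ((by norm_num : 2 ∣ 6).trans h6)
      have b := hpq' 3 Nat.prime_three ((by norm_num : 3 ∣ 6).trans h6)
      omega
    obtain ⟨S, rfl⟩ := hP.exists_sylow_top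
    have h1 : Mul2 ⊤ N(W p false (S : Subgroup G)) N(W p true (S : Subgroup G)) := fun g _ => by
      obtain ⟨x, hx, c, hc, m, hm, e⟩ := hf S g
      rw [hO, mem_bot] at hx
      exact ⟨c, centralizer_le_normalizer _ hc, m, hm, by rw [e, hx, one_mul]⟩
    have h2 := h1.card le_top le_top
    rw [card_top] at h2
    rcases hq.out.dvd_mul.1 (h2 ▸ hd.mul_right _) with a | a
    · exact ⟨_, a⟩
    · exact ⟨_, a⟩
  push Not at hm
  obtain ⟨Y, hPY, hqY, hY⟩ := hm
  have hlt : Nat.card Y < n := hn ▸ card_top (G := G) ▸ H26.card_lt_of_lt (lt_top_iff_ne_top.2 hY)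
  have hOY : pCore p G ≤ oP p Y := le_oP (hOP.trans hPY) le_normalizer_of_normal (pCore_isPGroup G p)
  obtain ⟨b, hb⟩ := ih _ hlt Y rfl (H4.pSol_top_iff.2 (hs.mono le_top)) (fun y hy => by
      rw [← oP_subgroupOf] at hy ⊢
      refine mem_subgroupOf.2 (hOY (hC (mem_centralizer_iff.2 fun x hx => ?_)))
      exact congrArg Subtype.val (mem_centralizer_iff.1 hy ⟨x, hPY (hOP hx)⟩ (hOY hx))) hqY (P.subgroupOf Y)
    ⟨le_top, hP.pgroup.comap_subtype, by
      rw [relIndex_top_right]; exact (hP.mono hPY le_top).not_dvd⟩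
  refine ⟨b, hb.trans ?_⟩
  rw [← card_map_of_injective Y.subtype_injective]
  refine card_dvd_of_le ((map_le_normalizer_map _ le_rfl).trans ?_)
  rw [map_W_inj Y.subtype_injective, map_subgroupOf_eq_of_le hPY]

theorem step (hpq : p ≠ q) (h23 : ¬ ((p = 2 ∧ q = 3) ∨ (p = 3 ∧ q = 2))) (hs : H4.PSol p (⊤ : Subgroup G))
    {H P : Subgroup G} [H.Normal] (hH : IsPGroup p H) (hP : IsSyl p P ⊤) (hd : q ∣ C(H).index)
    (hm : ∀ K, H ≤ K → K ≤ P → P ≤ N(K) → C(H) ⊔ N(K) = ⊤ → K ≤ H) :
    ∃ b, ∃ X ≤ N(W p b P), IsPGroup q X ∧ ¬ X ≤ C(H) := by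
  let g := QuotientGroup.mk' (pPrimeCore p G)
  have hg := QuotientGroup.mk'_surjective (pPrimeCore p G)
  have hco := coprime_iff_not_dvd.2 (pPrimeCore_not_dvd G p)
  have hPg : IsSyl p (P.map g) ⊤ := map_mk'_top (pPrimeCore p G) ▸ hP.map g
  have hOC : pPrimeCore p G ≤ C(H) := le_centralizer_of_commutator_eq_bot' (commutator_eq_bot_of_pgroup_of_not_dvd
    hH (pPrimeCore_not_dvd G p) le_normalizer_of_normal le_normalizer_of_normal)
  have hC := (hs.quotient (pPrimeCore p G)).centralizer_pCore_le (pPrimeCore_quotient G p)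
  have e : ((pCore p (G ⧸ pPrimeCore p G)).comap g ⊓ P).map g = pCore p _ :=
    map_comap_inf g (by rw [← oP_top]; exact hPg.oP_le)
  have h1 := H4.sup_normalizer_eq_top_of_map (N := pPrimeCore p G) (P := (pCore p (G ⧸ pPrimeCore p G)).comap g ⊓ P)
    (hP.pgroup.to_le inf_le_right) hco (e.symm ▸ inferInstance)
  have hHP : H ≤ P := hP.le_of_normalizer hH le_top le_normalizer_of_normal
  have h2 := hm _ (le_inf (map_le_iff_le_comap.1 (le_pCore_of_isSubnormal (Normal.isSubnormal (Normal.map ‹_› g hg))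
    (hH.map g))) hHP) inf_le_right (le_normalizer_inf le_normalizer_of_normal le_normalizer)
    (top_le_iff.1 (h1.ge.trans (sup_le_sup_right hOC _)))
  obtain ⟨b, hb⟩ := dvd_nW hpq h23 _ (G ⧸ pPrimeCore p G) rfl (hs.quotient _) hC
    (hd.trans (index_dvd_of_le hOC)) _ hPg
  have hW := hP.pgroup.to_le (W_le (p := p) b P)
  rw [← map_W (by rw [QuotientGroup.ker_mk']; exact H4.inf_pPrimeCore_eq_bot hP.pgroup),
    ← H4.map_mk'_normalizer_of_coprime hW hco] at hb
  rw [← relIndex_bot_left] at hb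
  obtain ⟨X', a1, a2, a3⟩ := exists_of_dvd hb
  obtain ⟨X, b1, b2, rfl⟩ := H4.exists_isPGroup_map_eq g a2 a1
  refine ⟨b, X, b1, b2, fun c => a3 (le_of_eq (eq_bot_of_pgroup_of_not_dvd ((pCore_isPGroup _ p).to_le
    (le_trans ?_ hC)) (not_dvd_card_of_pgroup_ne hpq.symm a2)))⟩
  exact (map_le_centralizer_map g c).trans (centralizer_anti (e.ge.trans (map_mono h2)))

/-- ambient form of "all automizers of `p`-subgroups are `p`-solvable" -/
def AP (p : ℕ) (G : Type*) [Group G] : Prop :=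
  ∀ H K : Subgroup G, IsPGroup p H → K ≤ N(H) → ⁅K, K⁆ = K → pElementClosure p K = K → K ≤ C(H)

theorem AP.sub (h : AP p G) (M : Subgroup G) : AP p M := fun H K h1 h2 h3 h4 =>
  (H26.map_le_centralizer_map_iff M.subtype_injective).1 (h _ _ (h1.map _) (map_le_normalizer_map _ h2)
    (by rw [← map_commutator, h3]) (by rw [← H26.map_pElementClosure, h4]))

theorem AP.quot (h : AP p G) (N : Subgroup G) [N.Normal] (hN : IsPGroup p N) : AP p (G ⧸ N) := by
  intro H K h1 h2 h3 h4
  let g := QuotientGroup.mk' N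
  have hg := QuotientGroup.mk'_surjective N
  obtain ⟨L, hL, hmin⟩ := (wellFounded_lt (α := Subgroup G)).has_min {L | L.map g = K}
    ⟨_, map_comap_eq_self_of_surjective hg K⟩
  have hm : ∀ L' ≤ L, L'.map g = K → L' = L := fun L' a b => a.eq_of_not_lt (hmin L' b)
  have e : L.map g = K := hL
  have := h (H.comap g) L (h1.comap_of_ker_isPGroup g (by rwa [QuotientGroup.ker_mk']))
    ((map_le_iff_le_comap.1 (e.le.trans h2)).trans (le_normalizer_comap g))
    (hm _ (commutator_le_right_of_le_normalizer le_normalizer) (by rw [map_commutator, e, h3]))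
    (hm _ (H26.pElementClosure_le _ _) (by rw [H26.map_pElementClosure, e, h4]))
  have := map_le_centralizer_map g this
  rwa [e, map_comap_eq_self_of_surjective hg] at this

theorem main (hpq : p ≠ q) (h23 : ¬ ((p = 2 ∧ q = 3) ∨ (p = 3 ∧ q = 2))) (n : ℕ) :
    ∀ (G : Type u) [Group G] [Finite G], Nat.card G = n → AP p G → ∀ H X : Subgroup G, IsPGroup p H → IsPGroup q X →
      X ≤ N(H) → ¬ X ≤ C(H) →
      ∃ S K X : Subgroup G, IsSyl p S ⊤ ∧ K ≤ S ∧ S ≤ N(K) ∧ IsPGroup q X ∧ X ≤ N(K) ∧ ¬ X ≤ C(K) := by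
  induction n using Nat.strong_induction_on with
  | _ n ih =>
  intro G _ _ hn hA H₀ X₀ hH₀ hX₀ n₀ c₀
  by_cases hO : pCore p G = ⊥
  swap
  · by_cases hc : X₀ ≤ C(pCore p G)
    swap
    · obtain ⟨S, hS⟩ := exists_isSyl p (⊤ : Subgroup G)
      exact ⟨S, pCore p G, X₀, hS, by rw [← oP_top]; exact hS.oP_le, le_normalizer_of_normal, hX₀,
        le_normalizer_of_normal, hc⟩
    let g := QuotientGroup.mk' (pCore p G)
    have hg := QuotientGroup.mk'_surjective (pCore p G)
    have hk : IsPGroup p g.ker := by rw [QuotientGroup.ker_mk']; exact pCore_isPGroup G p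
    obtain ⟨S, K, X, a1, a2, a3, a4, a5, a6⟩ := ih _ (hn ▸ card_quot_lt hO) (G ⧸ pCore p G) rfl
      (hA.quot _ (pCore_isPGroup G p)) (H₀.map g) (X₀.map g) (hH₀.map g) (hX₀.map g) (map_le_normalizer_map g n₀)
      fun e => c₀ (le_centralizer_of_commutator_eq_bot' ((Cop.of_pgroup' (not_dvd_card_of_pgroup_ne hpq.symm hX₀) hH₀
        n₀).commutator_eq_bot (commutator_eq_bot_mono (commutator_eq_bot_of_le_centralizer' hc) (map_mk'_eq_bot_iff.1
          (by rw [map_commutator]; exact commutator_eq_bot_of_le_centralizer' e)) le_rfl)))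
    obtain ⟨X', -, b2, rfl⟩ := H4.exists_isPGroup_map_eq g (H := ⊤) a4 (by rw [map_mk'_top]; exact le_top)
    refine ⟨S.comap g, K.comap g, X', ⟨le_top, a1.pgroup.comap_of_ker_isPGroup g hk, ?_⟩, comap_mono a2,
      (comap_mono a3).trans (le_normalizer_comap g), b2,
      (map_le_iff_le_comap.1 a5).trans (le_normalizer_comap g), fun e => a6 ?_⟩
    · rw [relIndex_top_right, index_comap_of_surjective _ hg, ← relIndex_top_right]
      exact a1.not_dvd
    · have := map_le_centralizer_map g e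
      rwa [map_comap_eq_self_of_surjective hg] at this
  let A : Subgroup G → Prop := fun H => ∃ X : Subgroup G, IsPGroup q X ∧ X ≤ N(H) ∧ ¬ X ≤ C(H)
  obtain ⟨P, ⟨hP, H₁, c1, c2, c3⟩, hPm⟩ := Set.exists_max_image
    {P : Subgroup G | IsPGroup p P ∧ ∃ H ≤ P, P ≤ N(H) ∧ A H} (fun P => Nat.card P) (Set.toFinite _)
    ⟨H₀, hH₀, H₀, le_rfl, le_normalizer, X₀, hX₀, n₀, c₀⟩
  obtain ⟨H, ⟨hHP, hPH, X, hX, nX, cX⟩, hHm⟩ := Set.exists_max_image {H : Subgroup G | H ≤ P ∧ P ≤ N(H) ∧ A H}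
    (fun H => Nat.card H) (Set.toFinite _) ⟨H₁, c1, c2, c3⟩
  have hH := hP.to_le hHP
  have hS : IsSyl p P N(H) := isSyl_of_max hPH hP fun P' a b c =>
    (eq_of_le_of_card_ge b (hPm P' ⟨a, H, hHP.trans b, c, X, hX, nX, cX⟩)).ge
  have nC : N(H) ≤ N(C(H)) := normalizer_le_normalizer_centralizer H
  have hd : q ∣ C(H).relIndex N(H) := dvd_of_exists nC nX hX cX
  have grow : ∀ K, H ≤ K → K ≤ P → P ≤ N(K) → N(H) ≤ C(H) ⊔ (N(H) ⊓ N(K)) → K ≤ H := fun K a b c d => by
    have : q ∣ C(H).relIndex (N(H) ⊓ N(K)) := by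
      rwa [← relIndex_sup_of_le_normalizer (inf_le_left.trans nC), sup_comm,
        le_antisymm (sup_le (centralizer_le_normalizer _) inf_le_left) d]
    obtain ⟨X', e1, e2, e3⟩ := exists_of_dvd this
    exact (eq_of_le_of_card_ge a (hHm K ⟨b, c, X', e2, e1.trans inf_le_right,
      fun e => e3 (e.trans (centralizer_anti a))⟩)).ge
  have hZ : IsSyl p (P ⊓ C(H)) C(H) := hS.inf_normal (centralizer_le_normalizer _) (hPH.trans nC)
  have hZH : P ⊓ C(H) ≤ H := le_sup_right.trans (grow (H ⊔ (P ⊓ C(H))) le_sup_left (sup_le hHP inf_le_left)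
    (le_normalizer_sup hPH (le_normalizer_inf le_normalizer (hPH.trans nC)))
    ((hZ.frattini (centralizer_le_normalizer _) nC).le.trans (sup_le_sup_left
      (le_inf inf_le_left (le_normalizer_sup inf_le_left inf_le_right)) _)))
  have hs : H4.PSol p N(H) := fun K a b c => by
    have d := hA H K hH a b c
    have e : K ≤ P ⊓ C(H) := by
      rw [← c, ← H4.oUq_eq]
      refine oUq_le_iff.2 fun g hg k hk => hZ.le_of_le_normalizer (isPGroup_zpowers_of_pow hk)
        (zpowers_le.2 (d hg)) (le_normalizer_of_le_centralizer ?_) (mem_zpowers g)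
      exact (zpowers_le.2 (d hg)).trans (centralizer_anti hZH)
    rw [← b]
    exact commutator_eq_bot_of_le_centralizer (d.trans (centralizer_anti (e.trans hZH)))
  have hi := N(H).subtype_injective
  have eH : (H.subgroupOf N(H)).map N(H).subtype = H := map_subgroupOf_eq_of_le le_normalizer
  have eP : (P.subgroupOf N(H)).map N(H).subtype = P := map_subgroupOf_eq_of_le hPH
  have eC : C(H.subgroupOf N(H)) = C(H).subgroupOf N(H) := by
    ext x
    rw [mem_subgroupOf, ← zpowers_le, ← zpowers_le, ← H26.map_le_centralizer_map_iff hi, eH, MonoidHom.map_zpowers]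
    rfl
  obtain ⟨b, X', d1, d2, d3⟩ := step (G := N(H)) (H := H.subgroupOf N(H)) (P := P.subgroupOf N(H)) hpq h23
    (H4.pSol_top_iff.2 hs) hH.comap_subtype ⟨le_top, hP.comap_subtype, by rw [relIndex_top_right]; exact hS.not_dvd⟩
    (by rw [eC]; exact hd) fun K a b c d => by
      rw [← map_le_map_iff_of_injective hi, eH]
      refine grow _ (eH.ge.trans (map_mono a)) ((map_mono b).trans eP.le) (eP.ge.trans (map_le_normalizer_map _ c)) ?_
      have := congrArg (Subgroup.map N(H).subtype) d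
      rw [H26.map_subtype_top, Subgroup.map_sup, eC] at this
      exact this.ge.trans (sup_le_sup (map_comap_le _ _)
        (le_inf (map_subtype_le _) (map_le_normalizer_map _ le_rfl)))
  have f1 := map_le_normalizer_map N(H).subtype d1
  rw [map_W_inj hi, eP] at f1
  rw [← H26.map_le_centralizer_map_iff hi, eH] at d3
  have f2 : X'.map N(H).subtype ≤ N(H) := map_subtype_le _
  have f3 := d2.map N(H).subtype
  generalize X'.map N(H).subtype = Y at f1 f2 f3 d3
  set M := N(W p b P) with hM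
  have hPM : P ≤ M := le_normalizer.trans (N_le_W b P)
  have hMt : M ≠ ⊤ := fun e => W_ne b hP (fun e' => d3 (le_centralizer_of_commutator_eq_bot (by
      rw [le_bot_iff.1 (hHP.trans e'.le), commutator_bot_right])))
    (le_bot_iff.1 ((le_oP le_top e.ge (hP.to_le (W_le b P))).trans (by rw [oP_top, hO])))
  have hj := M.subtype_injective
  obtain ⟨S, K, Z, a1, a2, a3, a4, a5, a6⟩ := ih _ (hn ▸ card_top (G := G) ▸ H26.card_lt_of_lt
    (lt_top_iff_ne_top.2 hMt)) M rfl (hA.sub M) (H.subgroupOf M) (Y.subgroupOf M) hH.comap_subtype f3.comap_subtype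
    ((comap_mono f2).trans (le_normalizer_comap _)) (by
      rwa [← H26.map_le_centralizer_map_iff hj, map_subgroupOf_eq_of_le f1, map_subgroupOf_eq_of_le (hHP.trans hPM)])
  have g1 := a1.map M.subtype
  rw [H26.map_subtype_top] at g1
  have g2 := hPm _ ⟨g1.pgroup, _, map_mono a2, map_le_normalizer_map _ a3, _, a4.map _, map_le_normalizer_map _ a5,
    mt (H26.map_le_centralizer_map_iff hj).1 a6⟩
  have g3 : IsSyl p P M := g1.of_card_le hP hPM g2
  refine ⟨P, H, X, isSyl_of_max le_top hP fun P' a b _ => ?_, hHP, hPH, hX, nX, cX⟩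
  by_contra hc
  have := lt_normalizer_of_pgroup a (lt_of_le_not_ge b hc)
  exact this.ne' (g3.eq_of_le (a.to_le inf_le_left) this.le (inf_le_right.trans (N_le_W _ P)))

end H27.AutQ
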