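import Cfsg.Agent.H17.FStar
import Cfsg.Agent.H18.BG1
import Cfsg.Agent.H26.Min

/-! Isolated `p`-minimal subgroups (Meierfrankenfeld–Parker–Rowley): the abstract configuration `Isol p S L R Q`
(`S` Sylow, `Q = O_p(L)`, `R = O^p(P)`), McBride's lemma relative to an overgroup (`mcbride_le`), and the structure
of the normal closure of `R` when `O_p = 1` (`Isol.fit_case`, `Isol.lay_case`). -/

set_option autoImplicit false
set_option linter.unusedSectionVars false

namespace H27.IsoP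

section McB
open H26 Subgroup Cfsg
open scoped commutatorElement

variable {G : Type*} [Group G] [Finite G] {p : ℕ} [Fact p.Prime]

theorem mcbride_le (S : Sylow p G) (K : Subgroup G) (hSK : (S : Subgroup G) ≤ K) (H : Subgroup G)
    (hSH : (S : Subgroup G) ≤ H)
    (hK : ∀ P : Subgroup G, (S : Subgroup G) ≤ P → P ≤ H → IsPMinimal p P → P ≤ K) :
    pElementClosure p H ≤ K := by
  have hS := isSyl_top S
  refine subgroup_card_induction (Q := fun H => (S : Subgroup G) ≤ H →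
    (∀ P : Subgroup G, (S : Subgroup G) ≤ P → P ≤ H → IsPMinimal p P → P ≤ K) → pElementClosure p H ≤ K) H
    (fun H _ ih hSH hK => ?_) hSH hK
  have h3 := hS.mono hSH le_top
  by_cases hn : H ≤ 𝐍 (S : Subgroup G)
  · exact (h3.pElementClosure_le le_rfl hn).trans hSK
  let X : Subgroup G := ⨆ M : {M : Subgroup G // (S : Subgroup G) ≤ M ∧ M < H}, pElementClosure p M.1
  have hXK : X ≤ K := iSup_le fun M => ih M.1 M.2.2 M.2.1 fun P a b c => hK P a (b.trans M.2.2.le) c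
  have hXH : X ≤ H := iSup_le fun M => (pElementClosure_le _ _).trans M.2.2.le
  have hX : ∀ M, (S : Subgroup G) ≤ M → M < H → pElementClosure p M ≤ X := fun M h4 h5 =>
    le_iSup (fun M : {M : Subgroup G // (S : Subgroup G) ≤ M ∧ M < H} => pElementClosure p M.1) ⟨M, h4, h5⟩
  have hSlt : (S : Subgroup G) < H := lt_of_le_of_ne hSH fun he => hn (he ▸ le_normalizer)
  have hSX : (S : Subgroup G) ≤ X := (le_pElementClosure hS.isP le_rfl).trans (hX _ le_rfl hSlt)
  have hXn : H ⊓ 𝐍 (S : Subgroup G) ≤ 𝐍 X := by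
    rw [le_normalizer_iff_cj]
    intro g hg
    rw [cj_iSup]
    refine iSup_le fun M => ?_
    rw [cj_pElementClosure]
    refine hX _ ?_ ?_
    · exact (cj_eq_iff.2 hg.2).ge.trans (cj_mono g M.2.1)
    · exact (cj_lt_cj_iff.2 M.2.2).trans_eq (cj_eq_of_mem hg.1)
  rcases (sup_le hXH (inf_le_left : H ⊓ 𝐍 (S : Subgroup G) ≤ H)).eq_or_lt with he | hlt
  · exact (h3.pElementClosure_le hSX (he ▸ sup_le le_normalizer hXn)).trans hXK
  · have hU : UMax (S : Subgroup G) (X ⊔ (H ⊓ 𝐍 (S : Subgroup G))) H := by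
      refine ⟨hSX.trans le_sup_left, hlt, fun M h4 h5 => ?_⟩
      rw [← (hS.mono h4 le_top).isSyl_pElementClosure.frattini (pElementClosure_le _ _)
        (le_normalizer_pElementClosure _ _)]
      exact sup_le_sup (hX M h4 h5) (inf_le_inf_right _ h5.le)
    have h4 := (isPMinimal_iff h3).2 ⟨hU.ncl_eq_of_isSyl h3 hn, _, hU⟩
    exact (pElementClosure_le _ _).trans (hK H hSH le_rfl h4)

theorem mcbride_le' (S : Sylow p G) (K H : Subgroup G) (hSH : (S : Subgroup G) ≤ H)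
    (hN : H ⊓ normalizer ((S : Subgroup G) : Set G) ≤ K)
    (hK : ∀ P : Subgroup G, (S : Subgroup G) ≤ P → P ≤ H → IsPMinimal p P → P ≤ K) : H ≤ K := by
  have hS := isSyl_top S
  rw [← (hS.mono hSH le_top).isSyl_pElementClosure.frattini (pElementClosure_le _ _)
    (le_normalizer_pElementClosure _ _)]
  exact sup_le (mcbride_le S K ((le_inf hSH le_normalizer).trans hN) H hSH hK) hN

theorem comm_eq (S : Sylow p G) {P Q : Subgroup G} (hSP : (S : Subgroup G) ≤ P) (hP : IsPMinimal p P)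
    (hQ : Q ≤ S) (hn : (S : Subgroup G) ≤ normalizer (Q : Set G)) (h : ¬ Q ≤ H17.oP p P) :
    ⁅H17.oUp p P, Q⁆ = H17.oUp p P := by
  have h3 := (isSyl_top S).mono hSP le_top
  have := (((isPMinimal_iff h3).1 hP).pIrrOf h3).commutator_eq h3 hQ hn h
  rwa [pResidualOf, H17.map_pResidual] at this

end McB

open H17 Subgroup Cfsg
open scoped commutatorElement

variable {G : Type*} [Group G] [Finite G] {p : ℕ} [Fact p.Prime]

local notation:max "N(" H ")" => Subgroup.normalizer (SetLike.coe (H : Subgroup _))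
local notation:max "C(" H ")" => Subgroup.centralizer (SetLike.coe (H : Subgroup _))

theorem oUp_oUp (H : Subgroup G) : oUp p (oUp p H) = oUp p H :=
  le_antisymm (oUp_le _ _) (oUp_le_iff.2 fun _ hg h => subset_closure ⟨subset_closure ⟨hg, h⟩, h⟩)

theorem eq_bot_of_oUp {R : Subgroup G} (h : oUp p R = R) (hR : IsPGroup p R) : R = ⊥ :=
  le_bot_iff.1 (h.ge.trans (oUp_le_of_le_sup hR le_sup_right le_normalizer_of_normal))

theorem comm_le_of_mul {T A C Q W : Subgroup G} (h : ∀ x ∈ T, ∃ a ∈ A, ∃ c ∈ C, x = a * c) (hC : C ≤ C(Q))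
    (hW : ⁅A, Q⁆ ≤ W) : ⁅T, Q⁆ ≤ W := by
  refine commutator_le.2 fun x hx q hq => ?_
  obtain ⟨a, ha, c, hc, rfl⟩ := h x hx
  have e : q * c = c * q := mem_centralizer_iff.1 (hC hc) q hq
  have : ⁅a * c, q⁆ = ⁅a, q⁆ := by
    simp only [commutatorElement_def]
    calc a * c * q * (a * c)⁻¹ * q⁻¹ = a * (c * q) * c⁻¹ * a⁻¹ * q⁻¹ := by group
      _ = _ := by rw [← e]; group
  exact this ▸ hW (commutator_mem_commutator ha hq)

/-- the configuration of an isolated `p`-minimal subgroup -/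
structure Isol (p : ℕ) (S L R Q : Subgroup G) : Prop where
  syl : IsSyl p S ⊤
  SL : S ≤ L
  QS : Q ≤ S
  LQ : L ≤ N(Q)
  comm : ⁅R, Q⁆ = R
  up : oUp p R = R
  ne : R ≠ ⊥
  SR : S ≤ N(R)
  gen : ∀ K, S ≤ K → K ≤ L ∨ (R ≤ K ∧ K ≤ (K ⊓ L) ⊔ R)

theorem isol_of (S : Sylow p G) {P L : Subgroup G} (hSP : (S : Subgroup G) ≤ P) (hP : IsPMinimal p P)
    (hL : L = normalizer ((S : Subgroup G) : Set G) ⊔
      ⨆ P' : {P' : Subgroup G // (S : Subgroup G) ≤ P' ∧ IsPMinimal p P' ∧ P' ≠ P}, (P' : Subgroup G))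
    (hiso : ¬ oP p L ≤ oP p P) : Isol p (S : Subgroup G) L (oUp p P) (oP p L) := by
  have hS := isSyl_sylow S
  have hNL : N((S : Subgroup G)) ≤ L := hL ▸ le_sup_left
  have hSL : (S : Subgroup G) ≤ L := le_normalizer.trans hNL
  have hQS : oP p L ≤ S := (hS.mono hSL le_top).oP_le
  have hPL : ∀ P' : Subgroup G, (S : Subgroup G) ≤ P' → IsPMinimal p P' → P' ≠ P → P' ≤ L := fun P' a b c =>
    hL ▸ (le_iSup (fun P' : {P' : Subgroup G // (S : Subgroup G) ≤ P' ∧ IsPMinimal p P' ∧ P' ≠ P} =>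
      (P' : Subgroup G)) ⟨P', a, b, c⟩).trans le_sup_right
  have hP' : oUp p P ⊔ S = P := (hS.mono hSP le_top).sup_oUp
  refine ⟨hS, hSL, hQS, le_normalizer_oP p L, comm_eq S hSP hP hQS (hSL.trans (le_normalizer_oP p L)) hiso,
    oUp_oUp P, fun h => hiso ?_, hSP.trans (le_normalizer_oUp p P), fun K hK => ?_⟩
  · rw [h, bot_sup_eq] at hP'
    rw [← hP', oP_eq_self hS.pgroup]
    exact hQS
  · by_cases h : P ≤ K
    · refine Or.inr ⟨(oUp_le p P).trans h, mcbride_le' S _ K hK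
        ((inf_le_inf_left _ hNL).trans le_sup_left) fun P' a b c => ?_⟩
      by_cases e : P' = P
      · rw [e]
        exact hP'.ge.trans (sup_le le_sup_right ((le_inf hK hSL).trans le_sup_left))
      · exact (le_inf b (hPL P' a c e)).trans le_sup_left
    · exact Or.inl (mcbride_le' S _ K hK (inf_le_right.trans hNL) fun P' a b c =>
        hPL P' a c fun e => h (e ▸ b))

namespace Isol
variable {S L R Q : Subgroup G} (h : Isol p S L R Q)
include h

theorem pQ : IsPGroup p Q := h.syl.pgroup.to_le h.QS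

theorem not_pR : ¬ IsPGroup p R := fun e => h.ne (eq_bot_of_oUp h.up e)

theorem not_RL : ¬ R ≤ L := fun e =>
  h.not_pR (h.pQ.to_le (h.comm.ge.trans (commutator_le_right_of_le_normalizer (e.trans h.LQ))))

theorem not_comm {K : Subgroup G} (hK : R ≤ K) : ⁅K, Q⁆ ≠ ⊥ := fun e =>
  h.ne (le_bot_iff.1 (h.comm.ge.trans ((commutator_mono hK le_rfl).trans e.le)))

theorem top_le : ⊤ ≤ L ⊔ R := by
  rcases h.gen ⊤ le_top with e | e
  · exact (h.not_RL (le_top.trans e)).elim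
  · exact e.2.trans (sup_le_sup_right inf_le_right _)

theorem normal {K : Subgroup G} (h1 : L ≤ N(K)) (h2 : R ≤ N(K)) : K.Normal :=
  normalizer_eq_top_iff.1 (top_le_iff.1 (h.top_le.trans (sup_le h1 h2)))

theorem map {G' : Type*} [Group G'] [Finite G'] (f : G →* G') (hf : Function.Surjective f) (hk : f.ker ≤ S) :
    Isol p (S.map f) (L.map f) (R.map f) (Q.map f) := by
  refine ⟨?_, map_mono h.SL, map_mono h.QS, map_le_normalizer_map f h.LQ, by rw [← map_commutator, h.comm],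
    le_antisymm (oUp_le _ _) ((map_mono h.up.ge).trans (map_oUp_le f R)), fun e => ?_,
    map_le_normalizer_map f h.SR, fun K hK => ?_⟩
  · have := h.syl.map f
    rwa [map_top_of_surjective f hf] at this
  · exact h.not_pR (h.syl.pgroup.to_le (((Subgroup.map_eq_bot_iff _).1 e).trans hk))
  · have e : (K.comap f).map f = K := map_comap_eq_self_of_surjective hf K
    rcases h.gen (K.comap f) (map_le_iff_le_comap.1 hK) with a | ⟨a, b⟩
    · exact Or.inl (e.ge.trans (map_mono a))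
    · refine Or.inr ⟨map_le_iff_le_comap.2 a, e.ge.trans ((map_mono b).trans ?_)⟩
      rw [Subgroup.map_sup]
      exact sup_le_sup_right ((map_inf_le _ _ _).trans (inf_le_inf_right _ e.le)) _

theorem cases {K : Subgroup G} (hK : S ≤ N(K)) : R ≤ K ∨ K ≤ L := by
  rcases h.gen (K ⊔ S) le_sup_right with a | ⟨a, -⟩
  · exact Or.inr (le_sup_left.trans a)
  · exact Or.inl (h.up.ge.trans (oUp_le_of_le_sup h.syl.pgroup a hK))

theorem comm_le {K : Subgroup G} (hK : S ≤ N(K)) (hL : K ≤ L) : ⁅K, Q⁆ ≤ Q ⊓ K :=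
  le_inf (commutator_le_right_of_le_normalizer (hL.trans h.LQ))
    (commutator_le_left_of_le_normalizer (h.QS.trans hK))

theorem cases_of_not_dvd {K : Subgroup G} (hK : S ≤ N(K)) (hp : ¬ p ∣ Nat.card K) : R ≤ K ∨ ⁅K, Q⁆ = ⊥ :=
  (h.cases hK).imp_right fun a =>
    le_bot_iff.1 ((h.comm_le hK a).trans (inf_eq_bot_of_pgroup_of_not_dvd h.pQ hp).le)

variable (hO : oP p (⊤ : Subgroup G) = ⊥)
include hO

theorem cases_of_subn {K : Subgroup G} (hK : S ≤ N(K)) (hs : Subn ⊤ K) : R ≤ K ∨ ⁅K, Q⁆ = ⊥ :=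
  (h.cases hK).imp_right fun a => le_bot_iff.1 ((h.comm_le hK a).trans ((le_oP inf_le_right
    (le_normalizer_inf (a.trans h.LQ) le_normalizer) (h.pQ.to_le inf_le_left)).trans (hs.oP_eq_bot hO).le))

theorem not_comm_gfit : ⁅gfit (⊤ : Subgroup G), Q⁆ ≠ ⊥ := fun e => by
  have := eq_bot_of_centralizes_gfit hO h.pQ le_top e
  exact h.not_comm le_rfl (by rw [this, commutator_bot_right])

theorem le_gfit : R ≤ gfit ⊤ :=
  (h.cases_of_subn hO (le_top.trans (le_normalizer_gfit ⊤)) (subn_gfit ⊤)).resolve_right (h.not_comm_gfit hO)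

theorem fit_case (hR : R ≤ fit ⊤) :
    R.Normal ∧ ∃ t : ℕ, t.Prime ∧ t ≠ p ∧ IsPGroup t R ∧ ⁅⁅R, R⁆, R⁆ = ⊥ := by
  obtain ⟨t, ht, hT⟩ : ∃ t : ℕ, ∃ _ : Fact t.Prime, R ≤ oP t ⊤ := by
    by_contra hc
    push Not at hc
    refine h.not_comm hR (commutator_eq_bot_of_le_centralizer (fit_le_of_forall_oP_le fun t _ => ?_))
    exact le_centralizer_of_commutator_eq_bot ((h.cases_of_subn hO (le_top.trans (le_normalizer_oP t ⊤))
      (subn_oP t ⊤)).resolve_left (hc t inferInstance))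
  have htp : t ≠ p := fun e => h.ne (le_bot_iff.1 (hT.trans (e ▸ hO).le))
  set T : Subgroup G := oP t ⊤ with hTdef
  have hTp : IsPGroup t T := oP_pgroup t ⊤
  have nT : ∀ K : Subgroup G, K ≤ N(T) := fun K => le_top.trans (le_normalizer_oP t ⊤)
  have hpT : ∀ {K : Subgroup G}, K ≤ T → ¬ p ∣ Nat.card K := fun hK =>
    not_dvd_card_of_pgroup_ne htp (hTp.to_le hK)
  set D := T ⊓ C(Q) with hD
  have LD : L ≤ N(D) := le_normalizer_inf (nT L) (le_normalizer_centralizer h.LQ)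
  have hlt : D < T := lt_of_le_of_ne inf_le_left fun e =>
    h.not_comm hT (commutator_eq_bot_of_le_centralizer (e.ge.trans inf_le_right))
  have RD : R ≤ N(D) := by
    rcases h.cases_of_not_dvd (K := T ⊓ N(D))
      (le_normalizer_inf (nT S) (le_normalizer_normalizer (h.SL.trans LD))) (hpT inf_le_left) with a | a
    · exact a.trans inf_le_right
    · exact ((lt_normalizer_of_pgroup hTp hlt).not_ge
        (le_inf inf_le_left (le_centralizer_of_commutator_eq_bot a))).elim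
  have nD := h.normal LD RD
  have hTL : ∀ {K : Subgroup G}, K ≤ T → S ≤ N(K) → K ≤ L → K ≤ D := fun hK a b =>
    le_inf hK (le_centralizer_of_commutator_eq_bot (le_bot_iff.1 ((h.comm_le a b).trans
      (inf_eq_bot_of_pgroup_of_not_dvd h.pQ (hpT hK)).le)))
  have TRD : T ≤ R ⊔ D := by
    rcases h.gen (S ⊔ T) le_sup_left with a | ⟨-, b⟩
    · exact (h.not_RL (hT.trans (le_sup_right.trans a))).elim
    rw [sup_inf_of_le_left (nT S) h.SL] at b
    refine le_of_le_sup_pgroup (hpT le_rfl) h.syl.pgroup (le_sup_right.trans (b.trans ?_))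
      (le_normalizer_sup h.SR (h.SL.trans LD))
    refine sup_le (sup_le le_sup_right ?_) (le_sup_left.trans le_sup_left)
    exact (hTL inf_le_left (le_normalizer_inf (nT S) (h.SL.trans le_normalizer)) inf_le_right).trans
      (le_sup_right.trans le_sup_left)
  have eR : ⁅T, Q⁆ = R := by
    refine le_antisymm (comm_le_of_mul (A := R) (C := D) (fun x hx => ?_) inf_le_right h.comm.le)
      (h.comm.ge.trans (commutator_mono hT le_rfl))
    obtain ⟨a, ha, b, hb, e⟩ := (mem_sup_of_le_normalizer_right RD).1 (TRD hx)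
    exact ⟨a, ha, b, hb, e.symm⟩
  have nR : R.Normal := h.normal (eR ▸ le_normalizer_commutator (nT L) h.LQ) le_normalizer
  refine ⟨nR, t, ht.out, htp, hTp.to_le hT, ?_⟩
  have DQ : ⁅D, Q⁆ = ⊥ := commutator_eq_bot_of_le_centralizer inf_le_right
  have RDc : ⁅R, D⁆ = ⊥ := by
    rw [← h.comm]
    refine commutator_commutator_eq_bot_of_rotate ?_ ?_
    · rw [commutator_comm Q D, DQ, commutator_bot_left]
    · exact le_bot_iff.1 ((commutator_mono (commutator_le_left D R) le_rfl).trans DQ.le)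
  have nRR : S ≤ N(⁅R, R⁆) := le_normalizer_commutator h.SR h.SR
  have hlt2 := commutator_lt_of_solvable (solvable_of_pgroup (hTp.to_le hT)) h.ne
  have := hTL (hlt2.le.trans hT) nRR ((h.cases nRR).resolve_left hlt2.not_ge)
  rw [commutator_comm]
  exact commutator_eq_bot_mono RDc le_rfl this

theorem lay_case (hR : ¬ R ≤ fit ⊤) :
    lay (normalClosure (R : Set G)) = normalClosure (R : Set G) ∧ p ∣ Nat.card (normalClosure (R : Set G)) ∧
      ∀ K₁ K₂, IsComp K₁ (normalClosure (R : Set G)) → IsComp K₂ (normalClosure (R : Set G)) →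
        ∃ s ∈ S, K₂ = cj s K₁ := by
  have hRl : R ≤ lay ⊤ := by
    refine (h.cases_of_subn hO (le_top.trans (le_normalizer_lay ⊤)) (subn_lay ⊤)).resolve_right fun a => ?_
    refine h.not_comm_gfit hO ?_
    rw [gfit_eq]
    exact commutator_sup_eq_bot a ((h.cases_of_subn hO (le_top.trans (le_normalizer_fit ⊤))
      (subn_fit ⊤)).resolve_left hR)
  let E : Subgroup G → Subgroup G := fun K => sSup {K' | ∃ s ∈ S, K' = cj s K}
  have hEc : ∀ K, IsComp K ⊤ → ∀ K' ∈ {K' | ∃ s ∈ S, K' = cj s K}, IsComp K' ⊤ := by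
    rintro K hK _ ⟨s, -, rfl⟩
    exact hK.cj_of_mem_normalizer (le_normalizer (mem_top s))
  have hEs : ∀ K, IsComp K ⊤ → Subn ⊤ (E K) := fun K hK => subn_sSup_comp (hEc K hK)
  have hKE : ∀ K s, s ∈ S → cj s K ≤ E K := fun K s hs => le_sSup ⟨s, hs, rfl⟩
  have hEn : ∀ K, S ≤ N(E K) := fun K s hs => by
    refine mem_normalizer_of_conj_mem fun x hx => ?_
    have : E K ≤ cj s⁻¹ (E K) := by
      refine sSup_le ?_
      rintro _ ⟨u, hu, rfl⟩
      rw [← cj_le_cj_iff (g := s), cj_cj_inv, ← cj_mul]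
      exact hKE K _ (mul_mem hs hu)
    simpa using mem_cj.1 (this hx)
  have hRE : ∀ K, IsComp K ⊤ → ⁅K, Q⁆ ≠ ⊥ → R ≤ E K := fun K hK hc =>
    (h.cases_of_subn hO (hEn K) (hEs K hK)).resolve_right fun a =>
      hc (commutator_eq_bot_mono a ((cj_one K).ge.trans (hKE K 1 (one_mem _))) le_rfl)
  have hnc : ∀ K, IsComp K ⊤ → ⁅K, Q⁆ ≠ ⊥ → ∀ M, S ≤ N(M) → R ≤ M → ⁅M, K⁆ ≠ ⊥ := fun K hK hc M hM hRM e => by
    refine hR ((le_inf (hRE K hK hc) (hRM.trans ?_)).trans (hEs K hK).inf_centralizer_le_fit)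
    refine le_centralizer_iff.1 (sSup_le ?_)
    rintro _ ⟨s, hs, rfl⟩
    refine le_centralizer_of_commutator_eq_bot' ?_
    rw [← mem_normalizer_iff_cj.1 (hM hs), ← cj_commutator, e, cj_bot]
  have horb : ∀ K₁ K₂, IsComp K₁ ⊤ → IsComp K₂ ⊤ → ⁅K₁, Q⁆ ≠ ⊥ → ⁅K₂, Q⁆ ≠ ⊥ → ∃ s ∈ S, K₂ = cj s K₁ :=
    fun K₁ K₂ h1 h2 c1 c2 => h2.mem_of_le_sSup (hEc K₁ h1) ((h2.le_or_commutator_subn (hEs K₁ h1)).resolve_right
      (hnc K₂ h2 c2 _ (hEn K₁) (hRE K₁ h1 c1)))
  obtain ⟨K₁, hK₁, c₁⟩ : ∃ K, IsComp K ⊤ ∧ ⁅K, Q⁆ ≠ ⊥ := by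
    by_contra hc
    push Not at hc
    exact h.not_comm hRl (commutator_lay_eq_bot hc)
  have hcj : ∀ K g, g ∈ L → ⁅K, Q⁆ ≠ ⊥ → ⁅cj g K, Q⁆ ≠ ⊥ := fun K g hg c e => by
    rw [← mem_normalizer_iff_cj.1 (h.LQ hg), ← cj_commutator, cj_eq_bot_iff] at e
    exact c e
  have nE : (E K₁).Normal := by
    refine h.normal (fun g hg => mem_normalizer_of_conj_mem fun x hx => ?_) ((hRE K₁ hK₁ c₁).trans le_normalizer)
    have : E K₁ ≤ cj g⁻¹ (E K₁) := by
      refine sSup_le ?_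
      rintro _ ⟨u, hu, rfl⟩
      rw [← cj_le_cj_iff (g := g), cj_cj_inv, ← cj_mul]
      obtain ⟨s, hs, e⟩ := horb K₁ (cj (g * u) K₁) hK₁ (hK₁.cj_of_mem_normalizer (le_normalizer (mem_top _))) c₁
        (hcj K₁ _ (mul_mem hg (h.SL hu)) c₁)
      exact e ▸ hKE K₁ s hs
    simpa using mem_cj.1 (this hx)
  set Y := normalClosure (R : Set G) with hY
  have hRY : R ≤ Y := le_normalClosure
  have hYE : Y ≤ E K₁ := normalClosure_le_normal (hRE K₁ hK₁ c₁)
  have hK₁Y : K₁ ≤ Y := (hK₁.le_or_commutator le_top le_normalizer_of_normal).resolve_right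
    (hnc K₁ hK₁ c₁ Y le_normalizer_of_normal hRY)
  have hcY : ∀ s, cj s K₁ ≤ Y := fun s => (cj_mono s hK₁Y).trans (cj_eq_of_normal s Y).le
  have hYs : Subn ⊤ Y := Subn.of_normal_top Y
  refine ⟨le_antisymm (lay_le Y) (hYE.trans (sSup_le ?_)), ?_, fun A B hA hB => ?_⟩
  · rintro _ ⟨s, hs, rfl⟩
    exact ((hEc K₁ hK₁ _ ⟨s, hs, rfl⟩).mono (hcY s) le_top).le_lay
  · by_contra hp
    have hcop : Cop S Y := Cop.of_pgroup h.syl.pgroup hp le_normalizer_of_normal
    have hsyl : ∀ (t : ℕ) [Fact t.Prime], ∃ T, IsSyl t T Y ∧ S ≤ N(T) ∧ (R ≤ T ∨ T ≤ Y ⊓ C(Q)) := fun t _ => by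
      obtain ⟨T, hT, n⟩ := hcop.exists_isSyl t
      exact ⟨T, hT, n, (h.cases_of_not_dvd n (not_dvd_card_of_le hT.le hp)).imp_right fun a =>
        le_inf hT.le (le_centralizer_of_commutator_eq_bot a)⟩
    obtain ⟨t, ht, T, hT, nT, hRT⟩ : ∃ t : ℕ, ∃ _ : Fact t.Prime, ∃ T, IsSyl t T Y ∧ S ≤ N(T) ∧ R ≤ T := by
      by_contra hc
      push Not at hc
      refine h.not_comm hRY (commutator_eq_bot_of_le_centralizer ((le_of_forall_syl_le fun t _ _ => ?_).trans
        (inf_le_right (a := Y))))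
      obtain ⟨T, hT, n, a⟩ := hsyl t
      exact ⟨T, hT, a.resolve_left (hc t inferInstance T hT n)⟩
    have hco : ((Y ⊓ C(Q)).relIndex Y).Coprime (T.relIndex Y) := by
      refine Nat.coprime_of_dvd fun u hu a b => ?_
      have : Fact u.Prime := ⟨hu⟩
      by_cases e : u = t
      · exact hT.not_dvd (e ▸ b)
      obtain ⟨U, hU, -, c | c⟩ := hsyl u
      · exact h.ne (eq_bot_of_pgroup_of_not_dvd (hT.pgroup.to_le hRT)
          (not_dvd_card_of_pgroup_ne e (hU.pgroup.to_le c)))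
      · exact hU.not_dvd_relIndex c a
    have hW : ⁅Y, Q⁆ ≤ T := comm_le_of_mul (C := Y ⊓ C(Q))
      (fun x hx => H18.exists_mul_of_coprime_relIndex inf_le_left hT.le hco hx) inf_le_right
      (commutator_le_left_of_le_normalizer (h.QS.trans nT))
    have hWs : Subn ⊤ ⁅Y, Q⁆ := hYs.trans (Subn.of_normal (hW.trans hT.le) (H26.le_normalizer_commutator_left Y Q))
    exact hR (h.comm.ge.trans ((commutator_mono hRY le_rfl).trans
      ((hWs.le_oP (hT.pgroup.to_le hW)).trans (oP_le_fit t ⊤))))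
  · obtain ⟨s, hs, rfl⟩ := (hA.of_subn hYs).mem_of_le_sSup (hEc K₁ hK₁) (hA.le.trans hYE)
    obtain ⟨u, hu, rfl⟩ := (hB.of_subn hYs).mem_of_le_sSup (hEc K₁ hK₁) (hB.le.trans hYE)
    exact ⟨u * s⁻¹, mul_mem hu (inv_mem hs), by rw [← cj_mul, inv_mul_cancel_right]⟩

end Isol

section Lift
variable (p) (Y : Subgroup G) [Y.Normal] [(pCore p G).Normal] [(pCore p Y).Normal]

theorem ker_eq : ((QuotientGroup.mk' (pCore p G)).comp Y.subtype).ker = pCore p Y := by
  rw [← oP_subgroupOf, (Subn.of_normal_top Y).oP_eq, oP_top]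
  ext x
  simp [mem_subgroupOf]

/-- `Y / O_p(Y) → G / O_p(G)` -/
def psi : Y ⧸ pCore p Y →* G ⧸ pCore p G :=
  QuotientGroup.lift _ ((QuotientGroup.mk' (pCore p G)).comp Y.subtype) (ker_eq p Y).ge

theorem psi_inj : Function.Injective (psi p Y) :=
  (QuotientGroup.injective_lift_iff _ _ _).2 (ker_eq p Y).symm

theorem psi_top : (⊤ : Subgroup (Y ⧸ pCore p Y)).map (psi p Y) = Y.map (QuotientGroup.mk' (pCore p G)) := by
  ext x
  constructor
  · rintro ⟨y, -, rfl⟩
    obtain ⟨y, rfl⟩ := QuotientGroup.mk_surjective y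
    exact ⟨y, y.2, rfl⟩
  · rintro ⟨y, hy, rfl⟩
    exact ⟨QuotientGroup.mk ⟨y, hy⟩, mem_top _, rfl⟩

theorem psi_comap (K : Subgroup (Y ⧸ pCore p Y)) :
    (K.comap (QuotientGroup.mk' (pCore p Y))).map Y.subtype =
      (K.map (psi p Y)).comap (QuotientGroup.mk' (pCore p G)) ⊓ Y := by
  ext x
  constructor
  · rintro ⟨y, hy, rfl⟩
    exact ⟨⟨_, hy, rfl⟩, y.2⟩
  · rintro ⟨⟨k, hk, e⟩, hx⟩
    refine ⟨⟨x, hx⟩, ?_, rfl⟩
    have : k = QuotientGroup.mk' (pCore p Y) ⟨x, hx⟩ := psi_inj p Y e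
    exact mem_comap.2 (this ▸ hk)

end Lift

theorem cj_comap {G' : Type*} [Group G'] (f : G →* G') (s : G) (K : Subgroup G') :
    cj s (K.comap f) = (cj (f s) K).comap f := by
  ext x
  simp only [mem_cj, mem_comap, map_mul, map_inv]

namespace Isol
variable {S L R Q : Subgroup G} (h : Isol p S L R Q) [(pCore p G).Normal]
include h

theorem bar : Isol p (S.map (QuotientGroup.mk' (pCore p G))) (L.map (QuotientGroup.mk' (pCore p G)))
    (R.map (QuotientGroup.mk' (pCore p G))) (Q.map (QuotientGroup.mk' (pCore p G))) :=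
  h.map _ (QuotientGroup.mk'_surjective _) (by rw [QuotientGroup.ker_mk', ← oP_top]; exact h.syl.oP_le)

omit h in
theorem bar_O : oP p (⊤ : Subgroup (G ⧸ pCore p G)) = ⊥ := by rw [oP_top, pCore_quotient]

omit h in
theorem bar_Y : (normalClosure (R : Set G)).map (QuotientGroup.mk' (pCore p G)) =
    normalClosure (R.map (QuotientGroup.mk' (pCore p G)) : Set (G ⧸ pCore p G)) :=
  map_normalClosure _ _ (QuotientGroup.mk'_surjective _)

theorem eq_of_bar (hn : (R.map (QuotientGroup.mk' (pCore p G))).Normal) : R = normalClosure (R : Set G) := by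
  have h1 := hn.comap (QuotientGroup.mk' (pCore p G))
  rw [comap_map_eq, QuotientGroup.ker_mk'] at h1
  have hN : pCore p G ≤ S := by rw [← oP_top]; exact h.syl.oP_le
  have h2 : oUp p (R ⊔ pCore p G) = R := le_antisymm
    (oUp_le_of_le_sup (pCore_isPGroup G p) le_rfl (hN.trans h.SR)) (h.up.ge.trans (oUp_mono p le_sup_left))
  have h3 : R.Normal := normalizer_eq_top_iff.1 (top_le_iff.1 (by
    have := normalizer_le_oUp p (R ⊔ pCore p G)
    rwa [h2, normalizer_eq_top] at this))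
  exact (normalClosure_eq_self R).symm

end Isol

end H27.IsoP
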