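import Cfsg.Agent.H27.SecCor
import Cfsg.Agent.H4.Thompson

/-! Glauberman's degree bound for `J(S)` (abelian version): if `J(S) ≰ T = O_p(G)` and `Q` is critical in `T`, some
maximal abelian `A ≰ T` has degree `(5, 2)` or `(4, 3)` on `Q/Z(Q)`, `Z(Q)` (`exists_j_offender`), hence degree `≤ 6` on
all chief factors in `T` (`exists_j_element`); `J` controls transfer for `p ≥ 7` (`j_transfer`). -/

namespace H27

open Subgroup H26 H4 Cfsg
open scoped commutatorElement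

variable {G : Type*} [Group G] {p : ℕ}

theorem comm_swap {U A B N : Subgroup G} (h : B ≤ 𝐂 A) (h1 : U ≤ 𝐍 N) (h2 : A ≤ 𝐍 N) (h3 : B ≤ 𝐍 N)
    (h4 : ⁅⁅U, B⁆, A⁆ ≤ N) : ⁅⁅U, A⁆, B⁆ ≤ N :=
  three_subgroups h1 h2 h3 (by rw [commutator_eq_bot_iff'.2 h, commutator_bot_left]; exact bot_le)
    (by rwa [commutator_comm B])

theorem ic_swap {U A B Z : Subgroup G} (h : B ≤ 𝐂 A) (hB : B ≤ A) (hU : U ≤ 𝐂 Z) (hAU : A ≤ 𝐍 U) (hAZ : A ≤ 𝐍 Z)
    (hUB : ⁅U, B⁆ ≤ Z) (i : ℕ) : ⁅iterCommutator U A i, B⁆ ≤ iterCommutator ⁅U, B⁆ A i := by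
  induction i with
  | zero => exact le_rfl
  | succ i ih =>
    have h1 : A ≤ 𝐍 (iterCommutator ⁅U, B⁆ A (i + 1)) := le_normalizer_commutator_right _ _
    exact comm_swap h (le_normalizer_of_le_centralizer ((ic_le hAU i).trans (hU.trans (centralizer_anti
      ((ic_mono hUB le_rfl _).trans (ic_le hAZ _)))))) h1 (hB.trans h1) (commutator_mono ih le_rfl)

variable [Finite G]

theorem repl_cyclic {Y A : Subgroup G} (hA : A ≤ 𝐂 A) (hAY : A ≤ 𝐍 Y) {u : G} (hu : u ∈ 𝐂 Y) :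
    Nat.card A * Nat.card ↥(Y ⊓ 𝐂 A) ≤
      Nat.card ↥(A ⊓ 𝐂 ⁅zpowers u, A⁆) * Nat.card ↥(⁅zpowers u, A⁆ ⊔ (Y ⊓ 𝐂 A)) ∧
    (Nat.card ↥(A ⊓ 𝐂 ⁅zpowers u, A⁆) * Nat.card ↥(⁅zpowers u, A⁆ ⊔ (Y ⊓ 𝐂 A)) ≤
      Nat.card A * Nat.card ↥(Y ⊓ 𝐂 A) → ∀ w ∈ ⁅zpowers u, A⁆, ∃ a ∈ A, ⁅u, a⁆⁻¹ * w ∈ Y ⊓ 𝐂 A) := by
  set X := ⁅zpowers u, A⁆ with hX
  set Z := Y ⊓ 𝐂 A with hZ
  set B := A ⊓ 𝐂 X with hB
  rw [← card_mul_relIndex_of_le (inf_le_left : B ≤ A), ← card_mul_relIndex_of_le (le_sup_right : Z ≤ X ⊔ Z),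
    relIndex, relIndex, index_eq_card, index_eq_card]
  let f : A → ↥(X ⊔ Z) ⧸ Z.subgroupOf (X ⊔ Z) := fun a =>
    QuotientGroup.mk ⟨⁅u, (a : G)⁆, mem_sup_left (commutator_mem_commutator (mem_zpowers u) a.2)⟩
  have hf : ∀ a b : A, f a = f b → (a : A ⧸ B.subgroupOf A) = b := by
    intro a b hab'
    rw [QuotientGroup.eq, mem_subgroupOf] at hab' ⊢
    simp only [coe_mul, coe_inv] at hab' ⊢
    have hc : (a : G)⁻¹ * b ∈ A := mul_mem (inv_mem a.2) b.2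
    refine ⟨hc, ?_⟩
    have hAZ : A ≤ 𝐍 Z := le_normalizer_inf hAY (le_normalizer_centralizer le_normalizer)
    have h1 : ⁅u, (a : G)⁻¹ * b⁆ ∈ Z := by
      have := conj_mem_of_mem_normalizer' (hAZ a.2) hab'
      convert this using 1
      simp only [commutatorElement_def]; group
    have h2 : ⁅zpowers u, zpowers ((a : G)⁻¹ * b)⁆ ≤ Z := commutator_zpowers_zpowers_le h1
      (le_normalizer_of_le_centralizer (centralizer_anti inf_le_left) hu) (hAZ hc)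
    have h3 : ⁅⁅A, zpowers u⁆, zpowers ((a : G)⁻¹ * b)⁆ = ⊥ := by
      apply commutator_commutator_eq_bot_of_rotate
      · exact commutator_eq_bot_iff_le_centralizer.2 (h2.trans inf_le_right)
      · rw [commutator_eq_bot_iff_le_centralizer.2 ((zpowers_le.2 hc).trans hA), commutator_bot_left]
    rw [commutator_comm A, commutator_eq_bot_iff', zpowers_le] at h3
    exact h3
  have hi : Function.Injective fun q : A ⧸ B.subgroupOf A => f q.out := fun q r hqr => by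
    have := hf _ _ hqr
    rwa [QuotientGroup.out_eq', QuotientGroup.out_eq'] at this
  refine ⟨?_, fun h w hw => ?_⟩
  · have := Nat.card_le_card_of_injective _ hi
    calc _ ≤ Nat.card B * Nat.card (↥(X ⊔ Z) ⧸ Z.subgroupOf (X ⊔ Z)) * Nat.card Z := by gcongr
      _ = _ := by ring
  · obtain ⟨q, hq⟩ := (hi.bijective_of_nat_card_le (Nat.le_of_mul_le_mul_left (c := Nat.card B * Nat.card Z)
      (by linarith) (Nat.mul_pos (card_pos' _) (card_pos' _)))).2 (QuotientGroup.mk ⟨w, mem_sup_left hw⟩)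
    exact ⟨q.out, q.out.2, mem_subgroupOf.1 (QuotientGroup.eq.1 hq)⟩

theorem repl_max {S A U : Subgroup G} (hA : A ∈ MaxEA 0 S) (hS : ⁅U, A⁆ ≤ S) (hU : U ≤ 𝐂 ⁅U, A⁆)
    (hY : ⁅U, A⁆ ≤ 𝐂 ⁅U, A⁆) : ⁅U, A⁆ ⊔ (A ⊓ 𝐂 ⁅U, A⁆) ∈ MaxEA 0 S := by
  set Y := ⁅U, A⁆ with hYe
  have hAY : A ≤ 𝐍 Y := le_normalizer_commutator_right _ _
  have hYc : IsMulCommutative Y := isMulCommutative_iff'.2 hY
  have hbest := MaxEA.best hA hS (elemAb_zero.2 hYc)
  have key : Nat.card A * Nat.card ↥(Y ⊓ 𝐂 A) ≤ Nat.card ↥(A ⊓ 𝐂 ⁅U, A⁆) * Nat.card ↥(⁅U, A⁆ ⊔ (Y ⊓ 𝐂 A)) := by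
    refine subgroup_induction (U := U) (Q := fun W => Nat.card A * Nat.card ↥(Y ⊓ 𝐂 A) ≤
      Nat.card ↥(A ⊓ 𝐂 ⁅W, A⁆) * Nat.card ↥(⁅W, A⁆ ⊔ (Y ⊓ 𝐂 A))) ?_ ?_
    · rw [commutator_bot_left, centralizer_bot', inf_top_eq, bot_sup_eq]
    intro W hW u hu h1
    have h2 := (repl_cyclic (comm_le_centralizer (MaxEA.comm hA)) hAY (hU hu)).1
    have hX1 : ⁅W, A⁆ ≤ Y := commutator_mono hW le_rfl
    have hX2 : ⁅zpowers u, A⁆ ≤ Y := commutator_mono (zpowers_le.2 hu) le_rfl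
    have hn : U ≤ 𝐍 (⁅W, A⁆ ⊔ ⁅zpowers u, A⁆) :=
      le_normalizer_of_le_centralizer (hU.trans (centralizer_anti (sup_le hX1 hX2)))
    rw [le_antisymm (commutator_sup_le le_sup_left le_sup_right (hW.trans hn) ((zpowers_le.2 hu).trans hn))
      (sup_le (commutator_mono le_sup_left le_rfl) (commutator_mono le_sup_right le_rfl)), centralizer_sup']
    set X₁ := ⁅W, A⁆
    set X₂ := ⁅zpowers u, A⁆
    set Z := Y ⊓ 𝐂 A with hZ
    rw [inf_inf_distrib_left, sup_sup_distrib_right]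
    have i1 := card_mul_card_le (A ⊓ 𝐂 X₁) (A ⊓ 𝐂 X₂)
    have i2 := card_mul_card_le (X₁ ⊔ Z) (X₂ ⊔ Z)
    have i3 := hbest ((A ⊓ 𝐂 X₁) ⊔ (A ⊓ 𝐂 X₂)) (sup_le inf_le_left inf_le_left)
    have i4 : Nat.card ↥((X₁ ⊔ Z) ⊓ (X₂ ⊔ Z)) ≤ Nat.card ↥(Y ⊓ 𝐂 ((A ⊓ 𝐂 X₁) ⊔ (A ⊓ 𝐂 X₂))) := by
      apply card_le_of_le
      rw [centralizer_sup']
      refine le_inf (inf_le_left.trans (sup_le hX1 inf_le_left)) (inf_le_inf ?_ ?_)
      · exact sup_le (le_centralizer_iff.1 inf_le_right) (inf_le_right.trans (centralizer_anti inf_le_left))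
      · exact sup_le (le_centralizer_iff.1 inf_le_right) (inf_le_right.trans (centralizer_anti inf_le_left))
    refine Nat.le_of_mul_le_mul_right ?_ (Nat.mul_pos (card_pos' A) (card_pos' Z))
    calc _ ≤ _ := Nat.mul_le_mul h1 h2
      _ = _ := mul_mul_mul_comm _ _ _ _
      _ ≤ _ := Nat.mul_le_mul i1 i2
      _ = (Nat.card ↥(A ⊓ 𝐂 X₁ ⊓ (A ⊓ 𝐂 X₂)) * Nat.card ↥(X₁ ⊔ Z ⊔ (X₂ ⊔ Z))) *
        (Nat.card ↥(A ⊓ 𝐂 X₁ ⊔ A ⊓ 𝐂 X₂) * Nat.card ↥((X₁ ⊔ Z) ⊓ (X₂ ⊔ Z))) := by ring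
      _ ≤ _ := Nat.mul_le_mul_left _ ((Nat.mul_le_mul_left _ i4).trans i3)
  rw [← hYe, sup_eq_left.2 (inf_le_left : Y ⊓ 𝐂 A ≤ Y)] at key
  refine MaxEA.of_card_ge hA (sup_le hS (inf_le_left.trans hA.1)) (elemAb_zero.2 (comm_sup hYc
    (comm_mono (MaxEA.comm hA) inf_le_left) (le_centralizer_iff.1 inf_le_right))) ?_
  have h3 := card_mul_card_le Y (A ⊓ 𝐂 Y)
  have h4 : Nat.card ↥(Y ⊓ (A ⊓ 𝐂 Y)) ≤ Nat.card ↥(Y ⊓ 𝐂 A) :=
    card_le_of_le (inf_le_inf_left _ (inf_le_left.trans (comm_le_centralizer (MaxEA.comm hA))))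
  exact Nat.le_of_mul_le_mul_right (key.trans ((mul_comm _ _).le.trans (h3.trans (Nat.mul_le_mul_left _ h4))))
    (card_pos' _)

variable [hp : Fact p.Prime] {S T Q Z A : Subgroup G}

theorem j_case_one [T.Normal] [Q.Normal] [Z.Normal] (hS : IsPGroup p S) (hQS : Q ≤ S) (hQT : ⁅Q, T⁆ ≤ Z) (hQ : Q ≤ T)
    (hZ : Q ≤ 𝐂 Z) (hA : A ∈ MaxEA 0 S) (h2 : ⁅⁅Z, A⁆, A⁆ = ⊥)
    (hmax : ∀ B ∈ MaxEA 0 S, ¬ B ≤ T → ⁅⁅Z, B⁆, B⁆ = ⊥ → Nat.card ↥(B ⊓ Q) ≤ Nat.card ↥(A ⊓ Q)) (hZQ : Z ≤ Q) :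
    iterCommutator Q A 5 ≤ Z := by
  set B := iterCommutator Q A with hB
  have hAc : A ≤ 𝐂 A := comm_le_centralizer (MaxEA.comm hA)
  have hBQ : ∀ i, B i ≤ Q := ic_le le_normalizer_of_normal
  have hanti : Antitone B := ic_antitone le_normalizer_of_normal
  have hZA : ⁅Z, A⁆ ≤ Z ⊓ 𝐂 A := le_inf (commutator_le_left _ _) (commutator_eq_bot_iff_le_centralizer.1 h2)
  have hQC : Q ≤ 𝐍 (Z ⊓ 𝐂 A) := le_normalizer_of_le_centralizer (hZ.trans (centralizer_anti inf_le_left))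
  have hAC : A ≤ 𝐍 (Z ⊓ 𝐂 A) := le_normalizer_of_le_centralizer (le_centralizer_iff.1 inf_le_right)
  have hD : A ⊓ T ≤ 𝐂 (B 2) := by
    have h1 : ⁅B 1, A ⊓ T⁆ ≤ Z ⊓ 𝐂 A := comm_swap (inf_le_left.trans hAc) hQC hAC (inf_le_left.trans hAC)
      ((commutator_mono ((commutator_mono le_rfl inf_le_right).trans hQT) le_rfl).trans hZA)
    exact commutator_eq_bot_iff'.1 (eq_bot_iff.2 (comm_swap (inf_le_left.trans hAc) (le_top.trans normalizer_bot'.ge)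
      (le_top.trans normalizer_bot'.ge) (le_top.trans normalizer_bot'.ge)
      (commutator_eq_bot_iff_le_centralizer.2 (h1.trans inf_le_right)).le))
  have step : ∀ k, 3 ≤ k → B (k + 3) ≤ Z → B (k + 2) = ⊥ := fun k hk hm => by
    have P0 : ∀ j, k + 3 ≤ j → ⁅B 0, B j⁆ = ⊥ := fun j hj =>
      commutator_eq_bot_iff_le_centralizer.2 (hZ.trans (centralizer_anti ((hanti hj).trans hm)))
    have P1 : ∀ i j, k + 3 ≤ i + j → ⁅B i, B j⁆ ≤ Z ⊓ 𝐂 A := fun i => by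
      induction i with
      | zero => exact fun j hj => (P0 j (by omega)).le.trans bot_le
      | succ i ih =>
        exact fun j hj => three_subgroups ((hBQ i).trans hQC) hAC ((hBQ j).trans hQC)
          (by rw [commutator_comm A, commutator_comm]; exact ih (j + 1) (by omega))
          ((commutator_mono ((commutator_mono (hBQ j) ((hBQ i).trans hQ)).trans hQT) le_rfl).trans hZA)
    have P2 : ∀ i j, k + 4 ≤ i + j → ⁅B i, B j⁆ = ⊥ := fun i => by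
      induction i with
      | zero => exact fun j hj => P0 j (by omega)
      | succ i ih =>
        exact fun j hj => commutator_commutator_eq_bot_of_rotate
          (by rw [commutator_comm A, commutator_comm]; exact ih (j + 1) (by omega))
          (commutator_eq_bot_iff_le_centralizer.2 ((P1 j i (by omega)).trans inf_le_right))
    have hV : B k ≤ 𝐂 (B (k + 1)) := commutator_eq_bot_iff_le_centralizer.1 (P2 _ _ (by omega))
    have hE := repl_max (U := B k) hA ((hBQ (k + 1)).trans hQS) hV ((hanti (Nat.le_succ k)).trans hV)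
    change B (k + 1) ⊔ (A ⊓ 𝐂 (B (k + 1))) ∈ _ at hE
    by_contra hne
    refine (hmax _ hE (fun h => hne ?_) ?_).not_gt (card_lt_of_lt (lt_of_le_of_ne (le_inf (le_sup_of_le_right
      (le_inf inf_le_left ((inf_le_inf_left A hQ).trans (hD.trans (centralizer_anti (hanti (by omega)))))))
        inf_le_right) fun e => hne (commutator_eq_bot_iff_le_centralizer.2
          ((le_inf le_sup_left (hBQ _)).trans (e.ge.trans (inf_le_left.trans hAc))))))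
    · have h3 : B k ≤ B (k + 1) ⊔ (A ⊓ 𝐂 (B (k + 1))) := fun x hx => MaxEA.mem_of_centralizes hE (hQS (hBQ k hx))
        (le_centralizer_sup hV (le_centralizer_iff.1 ((le_inf inf_le_left (le_sup_right.trans h)).trans
          (hD.trans (centralizer_anti (hanti (by omega)))))) hx) (pow_zero x)
      have h4 : B (k + 1) ≤ ⁅B (k + 1), A⁆ := (commutator_mono h3 le_rfl).trans (commutator_sup_le le_rfl
        ((commutator_eq_bot_iff_le_centralizer.2 (inf_le_left.trans hAc)).le.trans bot_le)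
        (le_normalizer_commutator_left _ _) (inf_le_left.trans (le_normalizer_commutator_right _ _)))
      exact eq_bot_iff.2 ((hanti (Nat.le_succ _)).trans
        (eq_bot_of_le_commutator hS ((hBQ _).trans hQS) hA.1 h4).le)
    · have h3 : ⁅Z, B (k + 1) ⊔ (A ⊓ 𝐂 (B (k + 1)))⁆ ≤ Z ⊓ 𝐂 A := commutator_sup_le'
        ((commutator_eq_bot_iff'.2 ((hBQ _).trans hZ)).le.trans bot_le)
        ((commutator_mono le_rfl inf_le_left).trans hZA) ((hBQ _).trans hQC) (inf_le_left.trans hAC)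
      exact commutator_eq_bot_iff_le_centralizer.2 (h3.trans (le_centralizer_sup
        (inf_le_left.trans (le_centralizer_iff.1 ((hBQ _).trans hZ))) (inf_le_right.trans (centralizer_anti inf_le_left))))
  obtain ⟨n, hn⟩ := exists_ic_eq_bot (hS.to_le hQS) (hS.to_le hA.1) (le_normalizer_of_normal : A ≤ 𝐍 Q)
  have key : ∀ d, B (5 + d) ≤ Z → B 5 ≤ Z := fun d => by
    induction d with
    | zero => exact id
    | succ d ih =>
      intro h
      refine ih ?_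
      rw [show 5 + d = 3 + d + 2 by omega, step (3 + d) (by omega) (by rwa [show 3 + d + 3 = 5 + (d + 1) by omega])]
      exact bot_le
  exact key n ((hanti (by omega)).trans (hn.le.trans bot_le))

theorem j_case_two [T.Normal] [Q.Normal] [Z.Normal] (hS : IsPGroup p S) (hQS : Q ≤ S) (hQT : ⁅Q, T⁆ ≤ Z)
    (hZ : Q ≤ 𝐂 Z) (hZQ : Z ≤ Q) (hA : A ∈ MaxEA 0 S) (h2 : ⁅⁅Z, A⁆, A⁆ ≠ ⊥)
    (hmax : ∀ B ∈ MaxEA 0 S, ¬ B ≤ T → Nat.card ↥(Z ⊓ B) ≤ Nat.card ↥(Z ⊓ A)) :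
    (∀ U ≤ Z, ⁅⁅U, A⁆, A⁆ ≤ ⁅U, A ⊓ T⁆ ⊔ (Z ⊓ 𝐂 A)) ∧ iterCommutator Q A 4 ≤ Z := by
  have hAc : A ≤ 𝐂 A := comm_le_centralizer (MaxEA.comm hA)
  have hZc : IsMulCommutative Z := isMulCommutative_iff'.2 (hZQ.trans hZ)
  have hZS := hZQ.trans hQS
  have hAZ : A ≤ 𝐍 Z := le_normalizer_of_normal
  have hAC : A ≤ 𝐂 (Z ⊓ 𝐂 A) := le_centralizer_iff.1 inf_le_right
  have hn : ∀ X ≤ Z, Q ≤ 𝐍 X := fun X h => le_normalizer_of_le_centralizer (hZ.trans (centralizer_anti h))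
  have hF : ∀ U ≤ Z, ⁅⁅U, A⁆, A⁆ ≠ ⊥ → A ⊓ 𝐂 ⁅U, A⁆ ≤ T := fun U hU h => by
    obtain ⟨h1, h3⟩ := MaxEA.replace hA hZS (elemAb_zero.2 hZc) hAZ hU
    by_contra hc
    refine (hmax _ h1 fun h4 => hc (le_sup_right.trans h4)).not_gt (card_lt_of_lt ?_)
    rw [h3]
    exact lt_of_le_of_ne le_sup_right fun e => h (commutator_eq_bot_iff_le_centralizer.2
      (le_sup_left.trans (e.ge.trans (inf_le_right.trans hAc))))
  have hK : ∀ U ≤ Z, ⁅⁅U, A⁆, A⁆ ≤ ⁅U, A ⊓ T⁆ ⊔ (Z ⊓ 𝐂 A) := fun U hU => by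
    have hN : ⁅U, A ⊓ T⁆ ⊔ (Z ⊓ 𝐂 A) ≤ Z :=
      sup_le ((commutator_mono hU le_rfl).trans (commutator_le_left _ _)) inf_le_left
    refine (le_commStab_iff.1 (commutator_le.2 fun x hx a ha => ?_)).2
    refine le_commStab_iff.2 ⟨((commutator_mono (zpowers_le.2 (hU hx)) le_rfl).trans
      ((commutator_le_left _ _).trans hZQ)).trans (hn _ hN), ?_⟩ (commutator_mem_commutator (mem_zpowers x) ha)
    set X := iterCommutator (zpowers x) A with hX
    have hXZ : ∀ i, X i ≤ Z := fun i => (ic_mono (zpowers_le.2 (hU hx)) le_rfl i).trans (ic_le hAZ i)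
    by_cases h0 : X 2 = ⊥
    · exact h0.le.trans bot_le
    have hex : ∃ l, X (l + 3) = ⊥ := by
      obtain ⟨n, hn⟩ := exists_ic_eq_bot (hS.to_le hZS) (hS.to_le hA.1) hAZ
      exact ⟨n, eq_bot_iff.2 ((ic_mono (zpowers_le.2 (hU hx)) le_rfl _).trans
        ((ic_antitone hAZ (by omega)).trans hn.le))⟩
    classical
    obtain ⟨l, hl, hl'⟩ : ∃ l, X (l + 3) = ⊥ ∧ X (l + 2) ≠ ⊥ := ⟨Nat.find hex, Nat.find_spec hex, by
      rcases e : Nat.find hex with _ | l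
      · exact h0
      · exact Nat.find_min hex (by omega : l < Nat.find hex)⟩
    intro w hw
    obtain ⟨b, hb, h3⟩ := (repl_cyclic hAc hAZ (hZ (hZQ (hU hx)))).2 ((Nat.mul_le_mul_left _ (card_le_of_le (le_inf
      (sup_le (hXZ 1) inf_le_left) (sup_le (le_centralizer_iff.1 inf_le_right)
        (inf_le_right.trans (centralizer_anti inf_le_left)))))).trans
      (MaxEA.best hA hZS (elemAb_zero.2 hZc) _ inf_le_left)) w
      (commutator_le_of_le_normalizer (le_normalizer_commutator_right _ _) hw)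
    have hN2 : X 2 ⊔ (Z ⊓ 𝐂 A) ≤ Z := sup_le (hXZ 2) inf_le_left
    have h4 : ⁅zpowers x, zpowers b⁆ ≤ X 2 ⊔ (Z ⊓ 𝐂 A) := commutator_zpowers_zpowers_le
      (by simpa using mul_mem (mem_sup_left hw : w ∈ X 2 ⊔ (Z ⊓ 𝐂 A)) (inv_mem (mem_sup_right h3)))
      (hn _ hN2 (hZQ (hU hx))) (le_normalizer_sup (le_normalizer_commutator_right _ _)
        (le_normalizer_of_le_centralizer hAC) hb)
    have h5 : ∀ i, ⁅X i, zpowers b⁆ ≤ iterCommutator ⁅zpowers x, zpowers b⁆ A i := fun i => by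
      induction i with
      | zero => exact le_rfl
      | succ i ih =>
        have h1 : A ≤ 𝐍 (iterCommutator ⁅zpowers x, zpowers b⁆ A (i + 1)) := le_normalizer_commutator_right _ _
        exact comm_swap ((zpowers_le.2 hb).trans hAc) (((hXZ i).trans hZQ).trans
          (hn _ ((ic_mono (h4.trans hN2) le_rfl _).trans (ic_le hAZ _)))) h1 ((zpowers_le.2 hb).trans h1)
          (commutator_mono ih le_rfl)
    have h6 : b ∈ T := hF (X l) (hXZ l) hl' ⟨hb, zpowers_le.1 (commutator_eq_bot_iff'.1 (eq_bot_iff.2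
      ((h5 (l + 1)).trans ?_)))⟩
    · rw [← mul_inv_cancel_left ⁅x, b⁆ w]
      exact mul_mem (mem_sup_left (commutator_mem_commutator hx ⟨hb, h6⟩)) (mem_sup_right h3)
    · rw [ic_succ', ← hl, hX, show l + 3 = 3 + l by omega, ic_add]
      exact ic_mono ((commutator_mono h4 le_rfl).trans (commutator_sup_le le_rfl
        ((commutator_eq_bot_iff'.2 hAC).le.trans bot_le) (le_normalizer_commutator_left _ _)
        ((inf_le_left.trans hZQ).trans (hn _ (hXZ 3))))) le_rfl l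
  refine ⟨hK, ?_⟩
  have hB := hF Z le_rfl h2
  have hE := (MaxEA.replace hA hZS (elemAb_zero.2 hZc) hAZ le_rfl).1
  set B := A ⊓ 𝐂 ⁅Z, A⁆
  have hBA : B ≤ A := inf_le_left
  have hAn : A ≤ 𝐍 (Z ⊓ 𝐂 A) := le_normalizer_of_le_centralizer hAC
  have h1 : ⁅Q, B⁆ ≤ Z := (commutator_mono le_rfl hB).trans hQT
  have h3 : ⁅Z, B⁆ ≤ Z ⊓ 𝐂 A := le_inf (commutator_le_left _ _) (commutator_eq_bot_iff_le_centralizer.1
    (eq_bot_iff.2 (comm_swap (le_centralizer_iff.1 (hBA.trans hAc)) (le_top.trans normalizer_bot'.ge)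
      (le_top.trans normalizer_bot'.ge) (le_top.trans normalizer_bot'.ge) (commutator_eq_bot_iff'.2 inf_le_right).le)))
  have h4 : ⁅⁅Q, B⁆, A ⊓ T⁆ ≤ Z ⊓ 𝐂 A := comm_swap (inf_le_left.trans (hAc.trans (centralizer_anti hBA)))
    (hn _ inf_le_left) (hBA.trans hAn) (inf_le_left.trans hAn)
    ((commutator_mono ((commutator_mono le_rfl inf_le_right).trans hQT) le_rfl).trans h3)
  have h5 : iterCommutator Q A 3 ≤ 𝐂 B := commutator_eq_bot_iff_le_centralizer.1 (eq_bot_iff.2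
    ((ic_swap (hBA.trans hAc) hBA hZ le_normalizer_of_normal hAZ h1 3).trans (commutator_eq_bot_iff_le_centralizer.2
      (((hK _ h1).trans (sup_le h4 le_rfl)).trans inf_le_right)).le))
  have h6 : iterCommutator Q A 3 ≤ ⁅Z, A⁆ ⊔ B := fun x hx => MaxEA.mem_of_centralizes hE
    (hQS (ic_le le_normalizer_of_normal 3 hx)) (le_centralizer_sup ((ic_le le_normalizer_of_normal 3).trans
      (hZ.trans (centralizer_anti (commutator_le_left _ _)))) h5 hx) (pow_zero x)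
  exact (commutator_mono h6 le_rfl).trans (commutator_sup_le
    ((commutator_mono (commutator_le_left _ _) le_rfl).trans (commutator_le_left _ _))
    ((commutator_eq_bot_iff_le_centralizer.2 (hBA.trans hAc)).le.trans bot_le) le_normalizer_of_normal
    le_normalizer_of_normal)

theorem exists_j_offender [T.Normal] [Q.Normal] [Z.Normal] (hS : IsPGroup p S) (hTS : T ≤ S) (hQT : ⁅Q, T⁆ ≤ Z)
    (hQ : Q ≤ T) (hZ : Q ≤ 𝐂 Z) (hZQ : Z ≤ Q) (hJ : ¬ thompsonSubgroupOf 0 S ≤ T) : ∃ A ∈ MaxEA 0 S, ¬ A ≤ T ∧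
      ((⁅⁅Z, A⁆, A⁆ = ⊥ ∧ iterCommutator Q A 5 ≤ Z) ∨
        ((∀ U V, IsChiefFactor U V → U ≤ Z → iterCommutator U A 3 ≤ V) ∧ iterCommutator Q A 4 ≤ Z)) := by
  have : Finite (Subgroup G) := Finite.of_injective _ SetLike.coe_injective
  by_cases h : ∃ A, A ∈ MaxEA 0 S ∧ ¬ A ≤ T ∧ ⁅⁅Z, A⁆, A⁆ = ⊥
  · obtain ⟨A, ⟨h1, h2, h3⟩, hmax⟩ := Set.exists_max_image {A | A ∈ MaxEA 0 S ∧ ¬ A ≤ T ∧ ⁅⁅Z, A⁆, A⁆ = ⊥}
      (fun A => Nat.card ↥(A ⊓ Q)) (Set.toFinite _) h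
    exact ⟨A, h1, h2, Or.inl ⟨h3, j_case_one hS (hQ.trans hTS) hQT hQ hZ h1 h3
      (fun B h4 h5 h6 => hmax B ⟨h4, h5, h6⟩) hZQ⟩⟩
  · rw [thompsonOf_le_iff] at hJ
    push Not at hJ
    obtain ⟨A, ⟨h1, h2⟩, hmax⟩ := Set.exists_max_image {A | A ∈ MaxEA 0 S ∧ ¬ A ≤ T}
      (fun A => Nat.card ↥(Z ⊓ A)) (Set.toFinite _) hJ
    obtain ⟨h3, h4⟩ := j_case_two hS (hQ.trans hTS) hQT hZ hZQ h1 (fun e => h ⟨A, h1, h2, e⟩)
      fun B h4 h5 => hmax B ⟨h4, h5⟩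
    refine ⟨A, h1, h2, Or.inr ⟨fun U V hUV hU => ?_, h4⟩⟩
    have := hUV.2.2.1
    exact (commutator_mono ((h3 U hU).trans (sup_le_sup_right ((commutator_mono le_rfl inf_le_right).trans
      (chief_commutator_le hUV (hS.to_le (hU.trans (hZQ.trans (hQ.trans hTS)))) (hS.to_le hTS))) _)) le_rfl).trans
      (commutator_sup_le (commutator_le_left _ _) ((commutator_eq_bot_iff_le_centralizer.2 inf_le_right).le.trans bot_le)
        le_normalizer_of_normal le_normalizer_of_normal)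

omit hp [Finite G] in
theorem chief_ic_le_of_le [Q.Normal] [Z.Normal] {U V : Subgroup G} (h : IsChiefFactor U V) (hU : U ≤ Q) {i j : ℕ}
    (hji : j ≤ i) (h1 : iterCommutator Q A i ≤ Z) (h2 : ∀ U V, IsChiefFactor U V → U ≤ Z → iterCommutator U A j ≤ V) :
    iterCommutator U A i ≤ V := by
  have := h.2.1
  have := h.2.2.1
  rcases chief_cover_or h Z with h3 | h3
  · exact ic_le_of_cover h3 (ic_le_of_le le_normalizer_of_normal hji
      ((h2 _ _ (chief_inf h h3) inf_le_right).trans inf_le_left))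
  · exact (le_inf (ic_le le_normalizer_of_normal i) ((ic_mono hU le_rfl i).trans h1)).trans h3

theorem exists_j_element (hS : IsPGroup p S) (hTS : pCore p G ≤ S) (hJ : ¬ (thompsonSubgroupOf 0 S).Normal) :
    ∃ g ∈ S, g ∉ pCore p G ∧ ∀ U V, IsChiefFactor U V → U ≤ pCore p G → iterCommutator U (zpowers g) 6 ≤ V := by
  have hT := isPGroup_pCore p G
  obtain ⟨Q, h1, h2, -, h3, h4⟩ := exists_critical_of hT
  have : Q.Normal := normal_of_le_normalizer (le_normalizer_of_normal.trans h2)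
  obtain ⟨A, hA, hAT, h⟩ := exists_j_offender hS hTS h3 h1 (le_centralizer_iff.1 inf_le_right) inf_le_left
    fun h => hJ (thompsonOf_eq_of_le h hTS ▸ inferInstance)
  obtain ⟨g, hg, hg'⟩ := SetLike.not_le_iff_exists.1 hAT
  refine ⟨g, hA.1 hg, hg', fun U V hUV hU => (ic_mono le_rfl (zpowers_le.2 hg) 6).trans ?_⟩
  rcases h with ⟨h5, h6⟩ | ⟨h5, h6⟩
  · have h7 : ∀ U V, IsChiefFactor U V → U ≤ Q ⊓ 𝐂 Q → iterCommutator U A 2 ≤ V := fun U V _ hU =>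
      (ic_mono hU le_rfl 2).trans (h5.le.trans bot_le)
    exact chief_ic_le_of_critical (i := 5) (j := 2) hT h1 (by rwa [commutator_comm]) h4 (by omega)
      (fun U V h hU => chief_ic_le_of_le h hU (by omega) h6 h7) h7 hUV hU
  · exact chief_ic_le_of_critical (i := 4) (j := 3) hT h1 (by rwa [commutator_comm]) h4 (by omega)
      (fun U V h hU => chief_ic_le_of_le h hU (by omega) h6 h5) h5 hUV hU

universe u

omit [Finite G] in
theorem isCharPFunctor_thompsonA : IsCharPFunctor.{u} p fun Q _ => thompsonSubgroupA Q := by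
  refine ⟨fun Q _ _ hQ _ e => ?_, fun Q R _ _ _ _ φ => ?_⟩
  · obtain ⟨x, hx⟩ := exists_ne (1 : Q)
    exact thompsonOf_ne_bot (mem_top x) hx (pow_zero x) (by rw [thompsonOf_top, ← thompsonSubgroupA_eq]; exact e)
  · dsimp only
    rw [thompsonSubgroupA_eq, thompsonSubgroupA_eq, map_thompsonSubgroup φ.injective,
      MonoidHom.range_eq_top.2 φ.surjective, thompsonOf_top]

theorem j_transfer {G : Type u} [Group G] [Finite G] (h7 : 7 ≤ p) {S : Subgroup G} (hS : IsSyl p S ⊤) :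
    S ⊓ ⁅(⊤ : Subgroup G), ⊤⁆ ≤ ⁅𝐍 (thompsonSubgroupAOf S), 𝐍 (thompsonSubgroupAOf S)⁆ := by
  have h := (controlsTransferIn_iff (isConjugacyFunctor_induced isCharPFunctor_thompsonA) hS).1
    (controlsTransferIn_of_engel isCharPFunctor_thompsonA (fun K R _ _ T hn => by
      obtain ⟨g, h1, h2, h3⟩ := exists_j_element T.isPGroup' (H1.pCore_le_sylow T)
        (thompsonSubgroupAOf_eq (T : Subgroup (K ⧸ R.subgroupOf K)) ▸ hn)
      exact ⟨g, h1, h2, fun U V h4 h6 => have := h4.2.2.1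
        ic_le_of_le le_normalizer_of_normal (by omega) (h3 U V h4 h6)⟩) G (involves_refl G))
  rwa [top_inf_eq] at h

end H27
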