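import Cfsg.Agent.H15.Kl0
import Cfsg.Agent.H1.Fitting

/-! Piece `PM2` of S4606: the local configuration `Loc` is impossible. -/
set_option autoImplicit false
namespace H27.KlM
open Subgroup Cfsg H15.Kl
universe u

theorem split {X : Type*} [Group X] [Finite X] {p : ℕ} (hp : p.Prime) (x : X) :
    ∃ a m : ℕ, ¬ p ∣ m ∧ (x ^ p ^ a) ^ m = 1 ∧ (x ^ m) ^ p ^ a = 1 := by
  obtain ⟨a, m, hm, e⟩ := Nat.exists_eq_pow_mul_and_not_dvd (orderOf_pos x).ne' p hp.ne_one
  refine ⟨a, m, hm, ?_, ?_⟩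
  · rw [← pow_mul, ← e, pow_orderOf_eq_one]
  · rw [← pow_mul, mul_comm, ← e, pow_orderOf_eq_one]

theorem one_of {X : Type*} [Group X] {p : ℕ} (hp : p.Prime) {x : X} {a m : ℕ} (hm : ¬ p ∣ m) (h1 : x ^ p ^ a = 1)
    (h2 : x ^ m = 1) : x = 1 :=
  orderOf_eq_one_iff.1 (Nat.eq_one_of_dvd_coprimes (((Nat.Prime.coprime_iff_not_dvd hp).2 hm).pow_left a)
    (orderOf_dvd_of_pow_eq_one h1) (orderOf_dvd_of_pow_eq_one h2))

theorem dvd_card {X : Type*} [Group X] [Finite X] {p : ℕ} (hp : p.Prime) {x : X} {a : ℕ} (h1 : x ^ p ^ a = 1)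
    (hx : x ≠ 1) : p ∣ Nat.card X := by
  by_contra h
  exact hx (one_of hp h h1 pow_card_eq_one')

theorem pM2 (hE : PE.{u}) (hO : PO.{u}) : PM2.{u} := by
  intro G _ _ p hpf P D hp2 hCP hFF hexp ⟨hDP, hD1, ⟨r, hrP, hrN, hrW⟩, hW⟩
  have hp : p.Prime := hpf.out
  have hD : IsPGroup p D := P.isPGroup'.to_le hDP
  set N := normalizer (D : Set G) with hN
  set C := centralizer (D : Set G) with hC
  obtain ⟨ar, har⟩ := P.isPGroup' ⟨r, hrP⟩
  have har' : (⟨r, hrN⟩ : N) ^ p ^ ar = 1 := Subtype.ext (by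
    have := congrArg Subtype.val har; exact this)
  haveI hCn : (C.subgroupOf N).Normal := by rw [← normalizerMonoidHom_ker]; infer_instance
  have hodd : Odd (C.relIndex N) := by
    rw [← Nat.not_even_iff_odd]
    intro h
    refine hE G p D hp2 hCP hFF hD hD1 h.two_dvd ?_
    refine dvd_card hp (x := ((⟨r, hrN⟩ : N) : N ⧸ C.subgroupOf N)) (a := ar) ?_ ?_
    · rw [← QuotientGroup.mk_pow, har', QuotientGroup.mk_one]
    · intro e
      exact hrW (mem_sup_right (mem_subgroupOf.1 ((QuotientGroup.eq_one_iff _).1 e)))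
  let V : Subgroup G := D ⊓ C
  have hcomm : ∀ v ∈ V, ∀ w ∈ D ⊔ C, w * v = v * w := by
    intro v hv w hw
    have : D ⊔ C ≤ centralizer {v} := sup_le
      (fun d hd => mem_centralizer_singleton_iff.2 (mem_centralizer_iff.1 hv.2 d hd))
      (fun c hc => mem_centralizer_singleton_iff.2 (mem_centralizer_iff.1 hc v hv.1).symm)
    exact mem_centralizer_singleton_iff.1 (this hw)
  have hconj : ∀ n ∈ N, ∀ v ∈ V, n * v * n⁻¹ ∈ V := by
    intro n hn v hv
    refine ⟨(mem_normalizer_iff.1 hn v).1 hv.1, mem_centralizer_iff.2 fun d hd => ?_⟩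
    have h1 : n⁻¹ * d * n⁻¹⁻¹ ∈ D := (mem_normalizer_iff.1 (N.inv_mem hn) d).1 hd
    have h2 := mem_centralizer_iff.1 hv.2 _ h1
    calc d * (n * v * n⁻¹) = n * (n⁻¹ * d * n⁻¹⁻¹ * v) * n⁻¹ := by group
      _ = _ := by rw [h2]; group
  have hNV : N ≤ normalizer (V : Set G) := fun n hn => mem_normalizer_iff.2 fun v =>
    ⟨hconj n hn v, fun h => by simpa [mul_assoc] using hconj n⁻¹ (N.inv_mem hn) _ h⟩
  letI : CommGroup V := { (inferInstance : Group V) with
    mul_comm := fun a b => Subtype.ext (hcomm b b.2 a (mem_sup_left a.2.1)) }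
  haveI : Nontrivial V := by
    haveI : Nontrivial D := (nontrivial_iff_ne_bot D).2 hD1
    obtain ⟨z, hz, hz1⟩ := (bot_lt_iff_ne_bot.1 hD.bot_lt_center) |> (ne_bot_iff_exists_ne_one.1 ·) |> fun ⟨z, h⟩ =>
      (⟨z.1, z.2, fun e => h (Subtype.ext e)⟩ : ∃ z ∈ center D, z ≠ 1)
    refine (nontrivial_iff_ne_bot V).2 (ne_bot_iff_exists_ne_one.2 ⟨⟨z.1, z.2, mem_centralizer_iff.2 fun d hd => ?_⟩,
      fun e => hz1 (Subtype.ext (by have := congrArg Subtype.val e; exact this))⟩)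
    exact congrArg Subtype.val (mem_center_iff.1 hz ⟨d, hd⟩)
  let φ : N →* MulAut V := V.normalizerMonoidHom.comp (inclusion hNV)
  have hφ : ∀ (n : N) (v : V), ((φ n v : V) : G) = n * v * (n : G)⁻¹ := fun n v => rfl
  have hker : ∀ n : N, (n : G) ∈ D ⊔ C → φ n = 1 := fun n hn => by
    ext v; rw [hφ, hcomm v v.2 n hn]; simp
  have hff : ∀ (n : N) (m : ℕ), ¬ p ∣ m → n ^ m = 1 → ∀ v : V, v ≠ 1 → φ n v = v → (n : G) ∈ C := by
    intro n m hm hn v hv e
    have e1 : Commute (v : G) n := by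
      have := congrArg Subtype.val e
      rw [hφ, mul_inv_eq_iff_eq_mul] at this
      exact this.symm
    exact mem_centralizer_iff.2 fun d hd => hFF D n v hD n.2
      (fun h => hm (h.trans (orderOf_dvd_of_pow_eq_one (congrArg Subtype.val hn)))) v.2.1
      (fun h => hv (Subtype.ext h)) e1 d hd
  have hK : ∀ K : Subgroup φ.range, K.Normal → IsPGroup p K → ∀ n : N, φ.rangeRestrict n ∈ K → (n : G) ∈ D ⊔ C := by
    intro K hKn hKp
    let π := QuotientGroup.mk' (pPrimeCore p N)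
    haveI : ((K.comap φ.rangeRestrict).map π).Normal := (hKn.comap _).map π (QuotientGroup.mk'_surjective _)
    have h1 : IsPGroup p ((K.comap φ.rangeRestrict).map π) := by
      rintro ⟨_, k, hk, rfl⟩
      obtain ⟨a, m, hm, e1, -⟩ := split hp k
      obtain ⟨b, hb⟩ := hKp ⟨_, K.pow_mem hk (p ^ a)⟩
      have e2 : φ.rangeRestrict k ^ p ^ a = 1 := one_of hp hm (congrArg Subtype.val hb)
        (by rw [← map_pow, ← map_pow, e1, map_one])
      have e3 : φ (k ^ p ^ a) = 1 := by rw [map_pow]; exact congrArg Subtype.val e2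
      obtain ⟨v, hv⟩ := exists_ne (1 : V)
      have e4 := hff _ m hm e1 v hv (by rw [e3]; rfl)
      have e5 : ((k ^ p ^ a : N) : G) ∈ (pPrimePCore p N).map N.subtype := hW ▸ mem_sup_right e4
      obtain ⟨k', hk', e6⟩ := e5
      obtain rfl : k' = k ^ p ^ a := Subtype.ext e6
      obtain ⟨c, hc⟩ := H1.pCore_isPGroup p (N ⧸ pPrimeCore p N) ⟨_, hk'⟩
      refine ⟨a + c, Subtype.ext ?_⟩
      show π k ^ p ^ (a + c) = 1
      rw [pow_add, pow_mul, ← map_pow]
      exact congrArg Subtype.val hc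
    intro n hn
    rw [← hW]
    exact ⟨n, H1.le_pCore h1 ⟨n, hn, rfl⟩, rfl⟩
  have hform : ∀ (n : N) (v : V) (k : ℕ),
      ((∏ i ∈ Finset.range k, (φ n ^ i) v : V) : G) * (n : G) ^ k = ((v : G) * n) ^ k := by
    intro n v k
    induction k with
    | zero => simp
    | succ k ih =>
      rw [Finset.prod_range_succ, pow_succ ((v : G) * n), ← ih, coe_mul, ← map_pow, hφ, coe_pow]; group
  refine hO V p φ.range (hD.to_le inf_le_left) ?_ ?_ ?_ ?_ ?_
  · refine hodd.of_dvd_nat ?_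
    rw [← index_ker]
    exact index_dvd_of_le fun n hn => hker n (mem_sup_right (mem_subgroupOf.1 hn))
  · rintro _ ⟨n, rfl⟩ h1 ho v hv
    by_contra hv1
    obtain ⟨a, m, hm, e1, -⟩ := split hp n
    obtain ⟨t, ht⟩ := exists_pow_eq_self_of_coprime (x := φ n)
      (((Nat.Prime.coprime_iff_not_dvd hp).2 ho).pow_left a)
    rw [← map_pow, ← map_pow] at ht
    have := hff ((n ^ p ^ a) ^ t) m hm (by rw [← pow_mul, mul_comm, pow_mul, e1, one_pow]) v hv1 (by rw [ht, hv])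
    exact h1 (by rw [← ht]; exact hker _ (mem_sup_right this))
  · rintro _ ⟨n, rfl⟩ h1 - v
    obtain ⟨a, m, hm, -, e1⟩ := split hp n
    obtain ⟨t, ht⟩ := exists_pow_eq_self_of_coprime (x := φ n) (n := m)
      (Nat.Coprime.coprime_dvd_right (orderOf_dvd_of_pow_eq_one h1) ((Nat.Prime.coprime_iff_not_dvd hp).2 hm).symm)
    rw [← map_pow, ← map_pow] at ht
    have e2 : (((n ^ m) ^ t : N) : G) ^ p ^ a = 1 := by
      rw [← coe_pow, ← pow_mul, mul_comm, pow_mul, e1, one_pow, coe_one]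
    rw [← ht]
    generalize (n ^ m) ^ t = s at e2
    have f1 := hform s v (p ^ a)
    rw [e2, mul_one] at f1
    obtain ⟨b, hb⟩ := (hD.to_le inf_le_left : IsPGroup p V) (∏ i ∈ Finset.range (p ^ a), (φ s ^ i) v)
    have f2 := hexp ((v : G) * s) ⟨a + b, by rw [pow_add, pow_mul, ← f1, ← coe_pow, hb, coe_one]⟩
    have f3 := hform s v p
    rw [f2, hexp s ⟨a, e2⟩, mul_one] at f3
    exact Subtype.ext f3
  · intro K hKn hKp
    refine eq_bot_iff.2 ?_
    rintro ⟨_, n, rfl⟩ hn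
    exact mem_bot.2 (Subtype.ext (hker n (hK K hKn hKp n hn)))
  · refine dvd_card hp (x := φ.rangeRestrict ⟨r, hrN⟩) (a := ar) (by rw [← map_pow, har', map_one]) fun e => ?_
    exact hrW (hK ⊥ inferInstance IsPGroup.of_bot ⟨r, hrN⟩ (mem_bot.2 e))

end H27.KlM
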