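import Cfsg.Agent.H27.ConjFun

/-! Local-to-global theorems for a pair of conjugacy functors `W ≥ Z ≥ V` (steps in `N(W Q)` and `C(V Q)`):
`pairFus_of_local`, `pairTr_of_local`; right-conjugation form of the fusion relation `fus_iff_right`. -/

namespace H27

open Subgroup H26 Cfsg
open scoped commutatorElement

variable {G : Type*} [Group G] {p : ℕ}

theorem fus_iff_right {𝓝 : Set G} (h𝓝 : ∀ x ∈ 𝓝, x⁻¹ ∈ 𝓝) {Q : Subgroup G} {X : Set G} (hX : X ⊆ Q) {a : G} :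
    Fus 𝓝 Q (closure X) a⁻¹ ↔ ∃ c ∈ centralizer X, ∃ (n : ℕ) (b : Fin n → G), (∀ i, b i ∈ 𝓝) ∧
      a = c * (List.ofFn b).prod ∧ ∀ k : ℕ, k ≤ n →
        (fun x => (((List.ofFn b).take k).prod)⁻¹ * x * ((List.ofFn b).take k).prod) ''
          ((fun x => c⁻¹ * x * c) '' X) ⊆ Q := by
  have himg : ∀ c ∈ centralizer X, (fun x => c⁻¹ * x * c) '' X = X := by
    intro c hc
    have : ∀ x ∈ X, c⁻¹ * x * c = x := fun x hx => by rw [mul_assoc, mem_centralizer_iff.1 hc x hx]; group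
    exact (Set.image_congr this).trans (Set.image_id' X)
  constructor
  · intro h
    obtain ⟨d, h1, h2⟩ := h.exists_chain
    rw [← inv_inv d] at h1
    obtain ⟨n, b, h3, h4⟩ := chain_iff_ofFn.1 h1
    rw [centralizer_closure'] at h2
    refine ⟨(d⁻¹ * a⁻¹)⁻¹, inv_mem h2, n, b, fun i => by simpa using h𝓝 _ (h4 i).2.2, by rw [h3]; group,
      fun k hk => ?_⟩
    rw [himg _ (inv_mem h2), ← cj_inv_closure_le_iff]
    cases k with
    | zero => rw [List.take_zero, List.prod_nil, inv_one, cj_one, closure_le]; exact hX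
    | succ k =>
      have := (h4 ⟨k, hk⟩).2.1
      rwa [← cj_mul, ← mul_inv_rev, ← prod_take_succ_ofFn] at this
  · rintro ⟨c, hc, n, b, h1, rfl, h2⟩
    rw [himg c hc] at h2
    refine Fus.of_chain ((closure_le _).2 hX) (chain_iff_ofFn.2 ⟨n, b, rfl, fun i => ⟨?_, ?_, h𝓝 _ (h1 i)⟩⟩) ?_
    · exact cj_inv_closure_le_iff.2 (h2 i i.2.le)
    · rw [← cj_mul, ← mul_inv_rev, ← prod_take_succ_ofFn]
      exact cj_inv_closure_le_iff.2 (h2 _ i.2)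
    · rw [centralizer_closure']
      simpa using hc

/-- Steps in `N_H(W Q)` or `C_H(V Q)`. -/
def pairSteps (W V : Subgroup G → Subgroup G) (H Q : Subgroup G) : Set G :=
  {x | x ∈ H ⊓ 𝐍 (W Q) ∨ x ∈ H ⊓ 𝐂 (V Q)}

theorem pairSteps_inv {W V : Subgroup G → Subgroup G} {H Q : Subgroup G} :
    ∀ x ∈ pairSteps W V H Q, x⁻¹ ∈ pairSteps W V H Q := fun _ hx => hx.imp inv_mem inv_mem

/-- The pair controls strong fusion. -/
def PairFus (W V : Subgroup G → Subgroup G) (H Q : Subgroup G) : Prop :=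
  ∀ A g, A ≤ Q → g ∈ H → cj g A ≤ Q → Fus (pairSteps W V H Q) Q A g

/-- The target subgroup for control of transfer by a pair. -/
def pairHat (W V : Subgroup G → Subgroup G) (H Q : Subgroup G) : Subgroup G :=
  Q ⊓ ⁅H ⊓ 𝐍 (W Q), H ⊓ 𝐍 (W Q)⁆ ⊔ Q ⊓ ⁅H ⊓ 𝐂 (V Q), H ⊓ 𝐂 (V Q)⁆

variable {W V : Subgroup G → Subgroup G}

theorem PairFus.cj (hW : IsConjugacyFunctor p W) (hV : IsConjugacyFunctor p V) {H T : Subgroup G}
    (hT : IsPGroup p T) (h : PairFus W V H T) (k : G) : PairFus W V (cj k H) (cj k T) := by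
  intro A g hA hg hgA
  have h1 := (h (cj k⁻¹ A) (k⁻¹ * g * k) (le_cj_iff.1 hA) (mem_cj.1 hg)
    (by rw [cj_mul, cj_mul, cj_cj_inv]; exact le_cj_iff.1 hgA)).cj_conj k
  have e : k * (k⁻¹ * g * k) * k⁻¹ = g := by group
  rw [cj_cj_inv, e] at h1
  refine h1.imp ?_
  rintro _ ⟨x, hx | hx, rfl⟩
  · left
    rw [cf_cj hW hT, ← cj_normalizer, ← cj_inf]
    exact conj_mem_cj k hx
  · right
    rw [cf_cj hV hT, ← cj_centralizer, ← cj_inf]
    exact conj_mem_cj k hx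

theorem cj_pairHat (hW : IsConjugacyFunctor p W) (hV : IsConjugacyFunctor p V) {H T : Subgroup G}
    (hT : IsPGroup p T) (k : G) : cj k (pairHat W V H T) = pairHat W V (cj k H) (cj k T) := by
  simp only [pairHat, cj_sup, cj_inf, cj_commutator, cj_normalizer, cj_centralizer, cf_cj hW hT, cf_cj hV hT]

theorem mem_pairHat (hW : IsConjugacyFunctor p W) {H Q : Subgroup G} (hQ : IsPGroup p Q) (hQH : Q ≤ H) {x : G} :
    x ∈ pairHat W V H Q ↔ ∃ a ∈ Q ⊓ ⁅H ⊓ 𝐍 (W Q), H ⊓ 𝐍 (W Q)⁆, ∃ b ∈ Q ⊓ ⁅H ⊓ 𝐂 (V Q), H ⊓ 𝐂 (V Q)⁆, x = a * b := by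
  have h1 : Q ≤ 𝐍 (H ⊓ 𝐍 (W Q)) := (le_inf hQH (cf_le_normalizer hW hQ)).trans le_normalizer
  rw [pairHat, mem_sup_of_le_normalizer' (inf_le_left.trans
    (le_normalizer_inf le_normalizer (le_normalizer_commutator h1 h1)))]
  simp only [eq_comm]

variable [hp : Fact p.Prime] [Finite G]

theorem pairFus_of_local (hW : IsConjugacyFunctor p W) (hV : IsConjugacyFunctor p V)
    (hWZ : ∀ H : Subgroup G, IsPGroup p H → H ⊓ 𝐂 H ≤ W H) {S H : Subgroup G} (hS : IsSyl p S H)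
    (hVmono : ∀ K ≤ S, S ⊓ 𝐂 S ≤ K → V S ≤ V K)
    (hloc : ∀ U, Ext p S H U → S ⊓ 𝐂 S ≤ U → ∃ Q, IsSyl p Q (H ⊓ 𝐍 U) ∧ PairFus W V (H ⊓ 𝐍 U) Q) :
    PairFus W V H S := by
  refine fus_local_to_global hS pairSteps_inv (GoodZ p S H) (fun T hT hG => ?_) fun T _ => bad_of_not_goodZ
  obtain ⟨k, hk, hU, -⟩ := exists_ext hS hT
  obtain ⟨Q, hQ, hF⟩ := hloc _ hU (hG k hk hU)
  obtain ⟨l, hl, e⟩ := hQ.exists_cj_eq hU.syl
  have hF := hF.cj hW hV hQ.isP l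
  rw [e, cj_eq_of_mem hl] at hF
  refine ⟨k, hk, hU, fun IH A x hA hx hxA => (hF A x hA hx hxA).bind inf_le_left ?_⟩
  have hP : IsPGroup p ↥(S ⊓ 𝐍 (cj k T)) := hS.isP.to_le inf_le_left
  rintro B y hB hyB (hy | hy) -
  · rcases (inf_le_left : S ⊓ 𝐍 (cj k T) ≤ S).eq_or_lt with he | hlt
    · rw [he] at hy hB hyB
      exact Fus.of_mem hB hyB (Or.inl ⟨hy.1.1, hy.2⟩)
    · have h1 := cf_lt hW hS.isP hlt
      exact IH _ ((cf_le hW hP).trans inf_le_left) (goodZ_of_ext hS hU (cf_le_normalizer hW hP) (hWZ _ hP))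
        (card_lt_of_lt h1) B y (hB.trans h1.le) ⟨hy.1.1, hy.2⟩ (hyB.trans h1.le)
  · exact Fus.of_mem (hB.trans inf_le_left) (hyB.trans inf_le_left) (Or.inr ⟨hy.1.1,
      centralizer_anti (hVmono _ inf_le_left (center_le_inf_normalizer hU.le)) hy.2⟩)

theorem pairTr_of_local (hW : IsConjugacyFunctor p W) (hV : IsConjugacyFunctor p V)
    (hWZ : ∀ H : Subgroup G, IsPGroup p H → H ⊓ 𝐂 H ≤ W H) {S H : Subgroup G} (hS : IsSyl p S H)
    (hVmono : ∀ K ≤ S, S ⊓ 𝐂 S ≤ K → V S ≤ V K)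
    (hloc : ∀ U, Ext p S H U → S ⊓ 𝐂 S ≤ U → ∃ Q, IsSyl p Q (H ⊓ 𝐍 U) ∧
      Q ⊓ ⁅H ⊓ 𝐍 U, H ⊓ 𝐍 U⁆ ≤ pairHat W V (H ⊓ 𝐍 U) Q) :
    S ⊓ ⁅H, H⁆ ≤ pairHat W V H S := by
  refine transfer_local_to_global hS _ (GoodZ p S H) (fun T hT hG => ?_) fun T _ => bad_of_not_goodZ
  obtain ⟨k, hk, hU, -⟩ := exists_ext hS hT
  obtain ⟨Q, hQ, hF⟩ := hloc _ hU (hG k hk hU)
  obtain ⟨l, hl, e⟩ := hQ.exists_cj_eq hU.syl
  have hF := cj_mono l hF
  rw [cj_pairHat hW hV hQ.isP, cj_inf, cj_commutator, e, cj_eq_of_mem hl] at hF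
  refine ⟨k, hk, hU, fun IH => hF.trans (sup_le ?_ ?_)⟩
  · have hP : IsPGroup p ↥(S ⊓ 𝐍 (cj k T)) := hS.isP.to_le inf_le_left
    rcases (inf_le_left : S ⊓ 𝐍 (cj k T) ≤ S).eq_or_lt with he | hlt
    · rw [he]
      exact le_trans (inf_le_inf_left _ (commutator_mono (inf_le_inf_right _ inf_le_left)
        (inf_le_inf_right _ inf_le_left))) le_sup_left
    · have h1 := cf_lt hW hS.isP hlt
      exact le_trans (inf_le_inf h1.le (commutator_mono (inf_le_inf_right _ inf_le_left)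
        (inf_le_inf_right _ inf_le_left))) (IH _ ((cf_le hW hP).trans inf_le_left)
        (goodZ_of_ext hS hU (cf_le_normalizer hW hP) (hWZ _ hP)) (card_lt_of_lt h1))
  · have h1 : H ⊓ 𝐍 (cj k T) ⊓ 𝐂 (V (S ⊓ 𝐍 (cj k T))) ≤ H ⊓ 𝐂 (V S) :=
      inf_le_inf inf_le_left (centralizer_anti (hVmono _ inf_le_left (center_le_inf_normalizer hU.le)))
    exact le_trans (inf_le_inf inf_le_left (commutator_mono h1 h1)) le_sup_right

omit hp [Finite G] in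
theorem vmono_aux (hV : IsConjugacyFunctor p V) {S : Subgroup G} (hS : IsPGroup p S)
    (hVZ : ∀ H : Subgroup G, IsPGroup p H → V H ≤ H ⊓ 𝐂 H)
    (hVmono : ∀ H K : Subgroup G, IsPGroup p H → IsPGroup p K → H ≠ ⊥ → K ≠ ⊥ → H ⊓ 𝐂 H ≤ K ⊓ 𝐂 K → V H ≤ V K) :
    ∀ K ≤ S, S ⊓ 𝐂 S ≤ K → V S ≤ V K := by
  intro K hK hZ
  by_cases h : S = ⊥
  · exact (cf_le hV hS).trans (h.le.trans bot_le)
  · refine hVmono S K hS (hS.to_le hK) h (fun e => ?_) (le_inf hZ (inf_le_right.trans (centralizer_anti hK)))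
    exact cf_ne_bot hV hS h (eq_bot_iff.2 ((hVZ S hS).trans (hZ.trans e.le)))

end H27
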