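import Cfsg.Agent.H23.Vn0
import Cfsg.Agent.H1.Fitting

/-! Piece `PC` of S4805: a Camina `p`-group with an involutory automorphism inverting the quotient. -/
set_option autoImplicit false
namespace H27.VnC
open Subgroup
universe u

theorem root {P : Type*} [Group P] {p : ℕ} (hp : p.Prime) (hp2 : p ≠ 2) (hP : IsPGroup p P) (x : P) :
    ∃ n : ℕ, (x * x) ^ n = x := by
  obtain ⟨k, hk⟩ := hP x
  obtain ⟨m, hm⟩ : Odd (p ^ k) := (hp.odd_of_ne_two hp2).pow
  refine ⟨m + 1, ?_⟩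
  rw [← sq, ← pow_mul, show 2 * (m + 1) = p ^ k + 1 by omega, pow_succ, hk, one_mul]

theorem rep {P : Type*} [Group P] {p : ℕ} (hp : p.Prime) (hp2 : p ≠ 2) (hP : IsPGroup p P) (A : Subgroup P)
    [hA : A.Normal] (τ : P →* P) (h2 : ∀ x, τ (τ x) = x) (hi : ∀ x, τ x * x ∈ A) (x : P) :
    ∃ x' a, a ∈ A ∧ x = x' * a ∧ τ x' = x'⁻¹ := by
  obtain ⟨n, hn⟩ := root hp hp2 hP x⁻¹
  have hy : x⁻¹ ^ n * x⁻¹ ^ n = x⁻¹ := by
    rw [← (Commute.refl x⁻¹).mul_pow]; exact hn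
  set y := x⁻¹ ^ n
  refine ⟨y⁻¹ * τ y, (y * (τ y * y) * y⁻¹)⁻¹, A.inv_mem (hA.conj_mem _ (hi y) y), ?_, by simp [h2]⟩
  have : x = (y * y)⁻¹ := by rw [hy, inv_inv]
  rw [this]; group

theorem core (P : Type u) [Group P] [Finite P] (p : ℕ) (A : Subgroup P) [hA : A.Normal] (τ : P →* P) (hp : p.Prime)
    (hp2 : p ≠ 2) (hP : IsPGroup p P) (hT : A ≠ ⊤) (h2 : ∀ x, τ (τ x) = x) (hi : ∀ x, τ x * x ∈ A)
    (hc : ∀ x ∉ A, ∀ y ∈ A, IsConj x (x * y)) (z : P) (hz1 : z ≠ 1) (hzA : z ∈ A) (hzc : z ∈ center P)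
    (hτz : τ z = z⁻¹) (hmod : ∀ a ∈ A, a⁻¹ * τ a ∈ zpowers z) : False := by
  have hZc : zpowers z ≤ center P := by rwa [zpowers_le]
  have hZi : ∀ w ∈ zpowers z, τ w = w⁻¹ := by
    rintro _ ⟨k, rfl⟩; simp [hτz]
  have hcen : ∀ w ∈ zpowers z, ∀ x, w * x = x * w := fun w hw x => (mem_center_iff.1 (hZc hw) x).symm
  have hone : ∀ w : P, w * w = 1 → w = 1 := by
    intro w hw; obtain ⟨n, hn⟩ := root hp hp2 hP w; rw [← hn, hw, one_pow]
  haveI : (zpowers z).Normal := ⟨fun w hw g => by rw [← hcen w hw g]; simpa using hw⟩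
  let π := QuotientGroup.mk' (zpowers z)
  have hπτ : ∀ a ∈ A, π (τ a) = π a := fun a ha => (QuotientGroup.eq.2 (hmod a ha)).symm
  have c1 : ∀ x, τ x = x⁻¹ → ∀ a ∈ A, Commute (π x) (π a) := by
    intro x hx a ha
    obtain ⟨n, hn⟩ := root hp hp2 hP x
    have e := hπτ _ (hA.conj_mem a ha x)
    simp only [map_mul, map_inv, hx, hπτ a ha, inv_inv] at e
    have : Commute (π x * π x) (π a) := by
      show π x * π x * π a = π a * (π x * π x)
      calc π x * π x * π a = π x * (π x * π a * (π x)⁻¹) * π x := by group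
        _ = π x * ((π x)⁻¹ * π a * π x) * π x := by rw [e]
        _ = _ := by group
    have h3 := this.pow_left n
    rwa [← map_mul, ← map_pow, hn] at h3
  obtain ⟨x1, hx1⟩ : ∃ x, x ∉ A := by
    by_contra h; push Not at h; exact hT (eq_top_iff.2 fun x _ => h x)
  obtain ⟨x0, a0, ha0, e0, hx0i⟩ := rep hp hp2 hP A τ h2 hi x1
  have hx0 : x0 ∉ A := fun h => hx1 (e0 ▸ A.mul_mem h ha0)
  have c2 : ∀ y ∈ A, ∀ a ∈ A, Commute (π y) (π a) := by
    intro y hy a ha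
    obtain ⟨u, hu⟩ := isConj_iff.1 (hc x0 hx0 y hy)
    have h1 := c1 x0 hx0i _ (hA.conj_mem a ha u⁻¹)
    have h3 : Commute (π (x0 * y)) (π a) := by
      rw [← hu]
      simp only [map_mul, map_inv, inv_inv] at h1 ⊢
      show π u * π x0 * (π u)⁻¹ * π a = π a * (π u * π x0 * (π u)⁻¹)
      calc π u * π x0 * (π u)⁻¹ * π a = π u * (π x0 * ((π u)⁻¹ * π a * π u)) * (π u)⁻¹ := by group
        _ = π u * (((π u)⁻¹ * π a * π u) * π x0) * (π u)⁻¹ := by rw [h1.eq]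
        _ = _ := by group
    have h4 := (c1 x0 hx0i a ha).inv_left.mul_left h3
    rwa [map_mul, inv_mul_cancel_left] at h4
  have c3 : ∀ x, ∀ a ∈ A, x * a * x⁻¹ * a⁻¹ ∈ zpowers z := by
    intro x a ha
    obtain ⟨x', b, hb, rfl, hx'⟩ := rep hp hp2 hP A τ h2 hi x
    have h1 : Commute (π (x' * b)) (π a) := by rw [map_mul]; exact (c1 x' hx' a ha).mul_left (c2 b hb a ha)
    rw [← QuotientGroup.eq_one_iff]
    show π _ = 1
    rw [map_mul, map_mul, map_mul π _ a, h1.eq, map_inv, map_inv]; group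
  have cA : ∀ a ∈ A, ∀ b ∈ A, a * b = b * a := by
    intro a ha b hb
    have h1 := hZi _ (c3 a b hb)
    obtain ⟨s, hs, es⟩ : ∃ s ∈ zpowers z, τ a = a * s := ⟨_, hmod a ha, by group⟩
    obtain ⟨t, ht, et⟩ : ∃ s ∈ zpowers z, τ b = b * s := ⟨_, hmod b hb, by group⟩
    have h3 : τ (a * b * a⁻¹ * b⁻¹) = a * b * a⁻¹ * b⁻¹ := by
      simp only [map_mul, map_inv, es, et]
      calc a * s * (b * t) * (a * s)⁻¹ * (b * t)⁻¹ = a * (s * (b * t)) * s⁻¹ * a⁻¹ * t⁻¹ * b⁻¹ := by group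
        _ = a * b * (t * a⁻¹) * t⁻¹ * b⁻¹ := by rw [hcen s hs]; group
        _ = _ := by rw [hcen t ht]; group
    have h4 := hone (a * b * a⁻¹ * b⁻¹) (by nth_rw 1 [← h3]; rw [h1]; group)
    calc a * b = a * b * a⁻¹ * b⁻¹ * (b * a) := by group
      _ = _ := by rw [h4, one_mul]
  -- for `x ∉ A` some `a ∈ A` has `[x, a] = z⁻¹`
  have c4 : ∀ x ∉ A, ∃ a ∈ A, x * a * x⁻¹ * a⁻¹ = z⁻¹ := by
    intro x hx
    obtain ⟨x', b, hb, rfl, hx'⟩ := rep hp hp2 hP A τ h2 hi x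
    have hx'A : x' ∉ A := fun h => hx (A.mul_mem h hb)
    obtain ⟨u, hu⟩ := isConj_iff.1 (hc x' hx'A z hzA)
    obtain ⟨u', a, ha, rfl, hu'⟩ := rep hp hp2 hP A τ h2 hi u
    refine ⟨a, ha, ?_⟩
    have e1 : x' * b * a * (x' * b)⁻¹ * a⁻¹ = x' * a * x'⁻¹ * a⁻¹ := by
      rw [mul_assoc x' b a, cA b hb a ha]; group
    rw [e1]
    obtain ⟨w, hw, ew⟩ : ∃ w ∈ zpowers z, x' * a * x'⁻¹ * a⁻¹ = w := ⟨_, c3 x' a ha, rfl⟩
    have e2 : a * x' * a⁻¹ = w⁻¹ * x' := by
      rw [hcen _ (inv_mem hw), ← ew]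
      have := hcen _ (inv_mem hw) x'
      rw [← ew] at this
      rw [← this]; group
    have hv : z * w ∈ zpowers z := mul_mem (mem_zpowers z) hw
    have e3 : u' * x' * u'⁻¹ = x' * (z * w) := by
      calc u' * x' * u'⁻¹ = u' * (w * (a * x' * a⁻¹)) * u'⁻¹ := by rw [e2]; group
        _ = (u' * w) * (a * x' * a⁻¹) * u'⁻¹ := by group
        _ = w * (u' * a * x' * (u' * a)⁻¹) := by rw [← hcen w hw]; group
        _ = _ := by rw [hu, hcen w hw]; group
    set v := z * w with hvdef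
    have e4 := congrArg τ e3
    simp only [map_mul, map_inv, hu', hx', inv_inv, hZi v hv] at e4
    have e5 : v * v = 1 := by
      have e6 : u' * x' = x' * u' * v := by
        calc u' * x' = u' * x' * u'⁻¹ * u' := by group
          _ = x' * (v * u') := by rw [e3]; group
          _ = _ := by rw [hcen v hv]; group
      have e7 : x' * u' = u' * x' * v := by
        calc x' * u' = u' * (u'⁻¹ * x'⁻¹ * u')⁻¹ := by group
          _ = u' * (v * x') := by rw [e4]; group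
          _ = _ := by rw [hcen v hv]; group
      rw [e7, mul_assoc _ v v] at e6
      exact (mul_eq_left.1 e6.symm)
    have e8 := hone v e5
    rw [ew]; exact eq_inv_of_mul_eq_one_right e8
  -- commutators lie in `A`
  have cP : ∀ x u : P, x * u * x⁻¹ * u⁻¹ ∈ A := by
    intro x u
    rw [← QuotientGroup.eq_one_iff]
    have hq : ∀ y, (QuotientGroup.mk' A) (τ y) = ((QuotientGroup.mk' A) y)⁻¹ := fun y =>
      eq_inv_of_mul_eq_one_left ((QuotientGroup.eq_one_iff _).2 (hi y))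
    have h1 := hq (x⁻¹ * u⁻¹)
    simp only [map_mul, map_inv, hq, inv_inv, mul_inv_rev] at h1
    show (QuotientGroup.mk' A) _ = 1
    simp only [map_mul, map_inv, h1]; group
  letI : CommGroup ↥(zpowers z) := { (inferInstance : Group ↥(zpowers z)) with
    mul_comm := fun a b => Subtype.ext (hcen _ a.2 _) }
  letI : CommGroup (P ⧸ A) := { (inferInstance : Group (P ⧸ A)) with
    mul_comm := fun a b => by
      induction a using QuotientGroup.induction_on with | H a =>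
      induction b using QuotientGroup.induction_on with | H b =>
      refine QuotientGroup.eq.2 ?_
      have := cP b⁻¹ a⁻¹
      convert this using 1; group }
  obtain ⟨l, hl⟩ := CommGroup.exists_apply_ne_one_of_hasEnoughRootsOfUnity ↥(zpowers z) ℂ
    (a := ⟨z⁻¹, inv_mem (mem_zpowers z)⟩) (fun h => hz1 (by simpa using congrArg Subtype.val h))
  let k : P → P := fun u => x0⁻¹ * u * x0 * u⁻¹
  have hk : ∀ u, k u ∈ A := fun u => by simpa using cP x0⁻¹ u
  let b : P → P → ↥(zpowers z) := fun x u => ⟨x * k u * x⁻¹ * (k u)⁻¹, c3 x _ (hk u)⟩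
  have bm : ∀ x u v, b x (u * v) = b x u * b x v := by
    intro x u v
    apply Subtype.ext
    show x * k (u * v) * x⁻¹ * (k (u * v))⁻¹ = x * k u * x⁻¹ * (k u)⁻¹ * (x * k v * x⁻¹ * (k v)⁻¹)
    obtain ⟨s, hs, es⟩ : ∃ s ∈ zpowers z, u * k v * u⁻¹ * (k v)⁻¹ = s := ⟨_, c3 u _ (hk v), rfl⟩
    have e1 : k (u * v) = k u * (s * k v) := by rw [← es]; simp only [k]; group
    obtain ⟨t, ht, et⟩ : ∃ s ∈ zpowers z, x * k v * x⁻¹ * (k v)⁻¹ = s := ⟨_, c3 x _ (hk v), rfl⟩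
    rw [e1, et]
    generalize k u = c at *
    generalize k v = d at *
    calc x * (c * (s * d)) * x⁻¹ * (c * (s * d))⁻¹ = x * c * (s * (d * x⁻¹ * d⁻¹)) * s⁻¹ * c⁻¹ := by group
      _ = x * c * x⁻¹ * ((x * d * x⁻¹ * d⁻¹) * c⁻¹) := by rw [hcen s hs]; group
      _ = _ := by rw [et, hcen t ht]; group
  have bl : ∀ x y u, b (x * y) u = b x u * b y u := by
    intro x y u
    apply Subtype.ext
    show x * y * k u * (x * y)⁻¹ * (k u)⁻¹ = x * k u * x⁻¹ * (k u)⁻¹ * (y * k u * y⁻¹ * (k u)⁻¹)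
    obtain ⟨t, ht, et⟩ : ∃ s ∈ zpowers z, y * k u * y⁻¹ * (k u)⁻¹ = s := ⟨_, c3 y _ (hk u), rfl⟩
    rw [et]
    generalize k u = c at *
    calc x * y * c * (x * y)⁻¹ * c⁻¹ = x * ((y * c * y⁻¹ * c⁻¹) * (c * x⁻¹ * c⁻¹)) := by group
      _ = _ := by rw [et, hcen t ht]; group
  have bA : ∀ x, ∀ u ∈ A, b x u = 1 := by
    intro x u hu
    apply Subtype.ext
    show x * k u * x⁻¹ * (k u)⁻¹ = 1
    have : k u ∈ zpowers z := by simpa using c3 x0⁻¹ u hu
    rw [← hcen _ this]; group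
  let Φ : P ⧸ A → (P ⧸ A →* ℂˣ) := fun q =>
    QuotientGroup.lift A (l.comp (MonoidHom.mk' (b q.out) (bm q.out))) (fun u hu => by
      show l (b q.out u) = 1
      rw [bA _ u hu, map_one])
  have hΦ : Function.Injective Φ := by
    intro q r hqr
    by_contra hne
    have hx : (r.out)⁻¹ * q.out ∉ A := fun h => hne (by
      rw [← QuotientGroup.out_eq' q, ← QuotientGroup.out_eq' r]; exact (QuotientGroup.eq.2 h).symm)
    obtain ⟨a, ha, ea⟩ := c4 _ hx
    obtain ⟨u, hu⟩ := isConj_iff.1 (hc x0 hx0 a⁻¹ (A.inv_mem ha))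
    have hinv : k u⁻¹⁻¹ = k u := by rw [inv_inv]
    have eku : ∃ u', k u' = a := by
      obtain ⟨u', hu'⟩ := isConj_iff.1 (hc x0 hx0 a ha)
      exact ⟨u', by simp only [k]; rw [mul_assoc, mul_assoc, ← mul_assoc u', hu']; group⟩
    obtain ⟨u', hu'⟩ := eku
    have e1 : l (b q.out u') = l (b r.out u') := DFunLike.congr_fun hqr (u' : P ⧸ A)
    have e2 := bl r.out ((r.out)⁻¹ * q.out) u'
    rw [mul_inv_cancel_left] at e2
    rw [e2, map_mul, mul_eq_left] at e1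
    apply hl
    rw [← e1]; congr 1
    apply Subtype.ext
    show z⁻¹ = _ * k u' * _ * (k u')⁻¹
    rw [hu', ea]
  have hcard := CommGroup.card_monoidHom_of_hasEnoughRootsOfUnity (P ⧸ A) ℂ
  haveI : Finite (P ⧸ A →* ℂˣ) := Nat.finite_of_card_ne_zero (by rw [hcard]; exact Nat.card_pos.ne')
  have hsurj := (hΦ.bijective_of_nat_card_le hcard.le).2
  obtain ⟨φ, hφ⟩ := CommGroup.exists_apply_ne_one_of_hasEnoughRootsOfUnity (P ⧸ A) ℂ
    (a := (x0 : P ⧸ A)) (fun h => hx0 ((QuotientGroup.eq_one_iff _).1 h))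
  obtain ⟨q, rfl⟩ := hsurj φ
  apply hφ
  show l (b q.out x0) = 1
  have : b q.out x0 = 1 := Subtype.ext (by
    show q.out * k x0 * (q.out)⁻¹ * (k x0)⁻¹ = 1
    simp [k])
  rw [this, map_one]

theorem pC : H23.Vn.PC.{u} := by
  intro P _ _ p
  induction hn : Nat.card P using Nat.strong_induction_on generalizing P with | _ n ih =>
  intro A hA τ hp hp2 hP hT h2 hi hc
  by_cases hb : A = ⊥
  · intro a ha; rw [hb, mem_bot] at ha; simp [ha]
  haveI := Fact.mk hp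
  haveI := hP.isNilpotent
  have hτA : ∀ a ∈ A, τ a ∈ A := fun a ha => by simpa using A.mul_mem (hi a) (A.inv_mem ha)
  obtain ⟨w, hw, hw1⟩ : ∃ w ∈ A ⊓ center P, w ≠ 1 := by
    by_contra h; push Not at h
    exact H1.normal_inf_center_ne_bot A hb (eq_bot_iff.2 fun x hx => mem_bot.2 (h x hx))
  have hτc : τ w ∈ center P := mem_center_iff.2 fun g => by
    have := congrArg τ (mem_center_iff.1 hw.2 (τ g))
    simpa [h2] using this
  obtain ⟨z, hzA, hzc, hz1, hz⟩ : ∃ z ∈ A, z ∈ center P ∧ z ≠ 1 ∧ (τ z = z ∨ τ z = z⁻¹) := by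
    by_cases h : τ w * w = 1
    · exact ⟨w, hw.1, hw.2, hw1, Or.inr (eq_inv_of_mul_eq_one_left h)⟩
    · refine ⟨τ w * w, hi w, mul_mem hτc hw.2, h, Or.inl ?_⟩
      rw [map_mul, h2]; exact mem_center_iff.1 hτc w
  have hZc : zpowers z ≤ center P := by rwa [zpowers_le]
  have hZA : zpowers z ≤ A := by rwa [zpowers_le]
  haveI : (zpowers z).Normal := ⟨fun w hw g => by rw [mem_center_iff.1 (hZc hw) g]; simpa using hw⟩
  have hτZ : zpowers z ≤ (zpowers z).comap τ := by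
    rw [zpowers_le, mem_comap]
    rcases hz with h | h <;> rw [h]
    · exact mem_zpowers z
    · exact inv_mem (mem_zpowers z)
  let π := QuotientGroup.mk' (zpowers z)
  have hsur : Function.Surjective π := QuotientGroup.mk'_surjective _
  haveI : (A.map π).Normal := hA.map π hsur
  have hmem : ∀ x, π x ∈ A.map π → x ∈ A := by
    rintro x ⟨a, ha, e⟩
    have := hZA (QuotientGroup.eq.1 e)
    simpa using A.mul_mem ha this
  have hlt : Nat.card (P ⧸ zpowers z) < n := by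
    rw [← hn, card_eq_card_quotient_mul_card_subgroup (zpowers z)]
    have : 1 < Nat.card ↥(zpowers z) := (one_lt_card_iff_ne_bot _).2 (by simpa using hz1)
    exact lt_mul_of_one_lt_right Nat.card_pos this
  have key := ih _ hlt (P ⧸ zpowers z) rfl (A.map π) (QuotientGroup.map _ _ τ hτZ) hp hp2
    (hP.to_quotient _)
    (fun h => hT (eq_top_iff.2 fun x _ => hmem x (h ▸ mem_top _)))
    (fun x => by
      obtain ⟨x, rfl⟩ := hsur x
      show π (τ (τ x)) = π x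
      rw [h2])
    (fun x => by
      obtain ⟨x, rfl⟩ := hsur x
      exact ⟨_, hi x, rfl⟩)
    (by
      rintro x hx _ ⟨y, hy, rfl⟩
      obtain ⟨x, rfl⟩ := hsur x
      rw [← map_mul]
      exact π.map_isConj (hc x (fun h => hx ⟨x, h, rfl⟩) y hy))
  have hmod : ∀ a ∈ A, a⁻¹ * τ a ∈ zpowers z := fun a ha =>
    QuotientGroup.eq.1 (key (π a) ⟨a, ha, rfl⟩).symm
  rcases hz with h | h
  · intro a ha
    obtain ⟨s, hs, es⟩ : ∃ s ∈ zpowers z, τ a = a * s := ⟨_, hmod a ha, by group⟩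
    have hτs : τ s = s := by obtain ⟨k, rfl⟩ := hs; simp [h]
    have e := congrArg τ es
    rw [h2, map_mul, hτs, es, mul_assoc] at e
    obtain ⟨m, hm⟩ := root hp hp2 hP s
    rw [mul_eq_left.1 e.symm, one_pow] at hm
    rw [es, ← hm, mul_one]
  · exact (core P p A τ hp hp2 hP hT h2 hi hc z hz1 hzA hzc h hmod).elim

end H27.VnC
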