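import Cfsg.Agent.H27.VnC
import Cfsg.Agent.H28.VnA
import Cfsg.Agent.H3.VnB
import Cfsg.Agent.H5.VnG
import Cfsg.Agent.S0205

/-! Assembly of S4805: solvability of `G`. -/
set_option autoImplicit false
namespace H27.VnS
open Subgroup Cfsg H5
open scoped commutatorElement
universe u

theorem solv (G : Type u) [Group G] [Finite G] (g : G) (χ : G → ℂ) (hg : g ≠ 1) (hχ : IsIrrCharacter G χ)
    (h1 : charDegree χ ≠ 1) (hχg : χ g ≠ 0) (ho : ∀ ψ, IsIrrCharacter G ψ → charDegree ψ ≠ 1 → ψ ≠ χ → ψ g = 0) :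
    charKer χ ≤ commutator G ∧ Group.IsSolvable G := by
  obtain ⟨a1, -, a3, a4, a5, -⟩ := H28.VnA.pA G g χ hg hχ h1 hχg ho
  haveI := hχ.isCharacter.normal_charKer
  have hne : χ 1 ≠ 0 := by
    intro h
    have := hχ.isCharacter.norm_le g
    rw [h, norm_zero] at this
    exact hχg (norm_le_zero_iff.1 this)
  have hcen : ∀ w, (∀ x, ⁅w, x⁆ ∈ charKer χ) → w ∈ commutator G := by
    intro w hw
    by_contra h
    have := hχ.mem_charCenter.1 (hχ.mem_charCenter_iff_commutator.2 hw)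
    rw [a5 w h, norm_zero] at this
    exact hne (norm_eq_zero.1 this.symm)
  have hKH : charKer χ ≤ commutator G := fun k hk => by
    by_contra h
    exact hne (by rw [← apply_eq_of_mem_charKer hk, a5 k h])
  refine ⟨hKH, ?_⟩
  obtain ⟨p, hp, b1, b2, b3⟩ := H5.VnG.pG G (charKer χ) g hKH a1 a3 a4 hcen
  obtain ⟨M, hMn, hMK, hpM, hM⟩ := H3.VnB.pB G (commutator G) (charKer χ) p g hp hKH b1 (b2 g a1 a3)
    (fun ψ hψ hk => ho ψ hψ ((H8.not_le_ker_iff hψ).1 fun h => hk (hKH.trans h)) (fun e => hk (e ▸ le_rfl)))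
  set K := charKer χ
  set H := commutator G with hH
  haveI := Fact.mk hp
  let π := QuotientGroup.mk' M
  have hsur : Function.Surjective π := QuotientGroup.mk'_surjective _
  haveI : (H.map π).Normal := Normal.map inferInstance π hsur
  haveI : (K.map π).Normal := Normal.map inferInstance π hsur
  have hP : IsPGroup p ↥(H.map π) := by
    rintro ⟨_, h, hh, rfl⟩
    obtain ⟨k, hk⟩ := hM h hh
    exact ⟨k, Subtype.ext (by
      show π h ^ p ^ k = 1
      rw [← map_pow]; exact (QuotientGroup.eq_one_iff _).2 hk)⟩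
  have hone : ∀ m ∈ M, ∀ j, m ^ p ^ j = 1 → m = 1 := by
    intro m hm j hj
    have d1 := orderOf_dvd_of_pow_eq_one hj
    have d2 : orderOf m ∣ Nat.card M := M.orderOf_dvd_natCard hm
    have := Nat.eq_one_of_dvd_coprimes (((Nat.Prime.coprime_iff_not_dvd hp).2 hpM).pow_left j) d1 d2
    exact orderOf_eq_one_iff.1 this
  have hmem : ∀ x, π x ∈ K.map π → x ∈ K := by
    rintro x ⟨a, ha, e⟩
    have := hMK (QuotientGroup.eq.1 e)
    simpa using K.mul_mem ha this
  have hMs : Group.IsSolvable M := by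
    by_cases hp2 : p = 2
    · subst hp2
      exact Cfsg.Agent.S0205.result (Nat.not_even_iff_odd.1 fun h => hpM h.two_dvd)
    obtain ⟨t, k, t1, t2, t3, t4⟩ := b3 hp2
    let A : Subgroup ↥(H.map π) := (K.map π).subgroupOf (H.map π)
    let τ : ↥(H.map π) →* ↥(H.map π) := (MulAut.conjNormal (π t)).toMonoidHom
    have hτ : ∀ x, ((τ x : ↥(H.map π)) : G ⧸ M) = π t * x * (π t)⁻¹ := fun x => rfl
    have htt : π t * π t = 1 := by
      obtain ⟨j, hj⟩ := hP ⟨π (t * t), t * t, t2, rfl⟩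
      have e1 : (π t * π t) ^ p ^ j = 1 := by rw [← map_mul]; exact congrArg Subtype.val hj
      have e2 : (π t * π t) ^ 2 ^ k = 1 := by
        rw [(Commute.refl _).mul_pow, ← map_pow, t1, map_one, one_mul]
      exact orderOf_eq_one_iff.1 (Nat.eq_one_of_dvd_coprimes
        (Nat.Coprime.pow j k ((Nat.coprime_primes hp Nat.prime_two).2 hp2))
        (orderOf_dvd_of_pow_eq_one e1) (orderOf_dvd_of_pow_eq_one e2))
    have h2 : ∀ x, τ (τ x) = x := fun x => Subtype.ext (by
      rw [hτ, hτ]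
      calc π t * (π t * x * (π t)⁻¹) * (π t)⁻¹ = (π t * π t) * x * (π t * π t)⁻¹ := by group
        _ = x := by rw [htt]; group)
    have hi : ∀ x, τ x * x ∈ A := by
      rintro ⟨_, h, hh, rfl⟩
      exact ⟨_, t3 h hh, rfl⟩
    have hgA : (⟨π g, g, a1, rfl⟩ : ↥(H.map π)) ∉ A := fun h => a3 (hmem g h)
    have hfix := H27.VnC.pC _ p A τ hp hp2 hP (fun h => hgA (h ▸ mem_top _)) h2 hi (by
      rintro ⟨_, x, hx, rfl⟩ hxA ⟨y, hy⟩ ⟨y', hy', rfl⟩
      obtain ⟨v, hv, e⟩ := t4 x hx (fun h => hxA ⟨x, h, rfl⟩) y' hy'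
      exact isConj_iff.2 ⟨⟨π v, v, hv, rfl⟩, Subtype.ext (congrArg π e)⟩)
    obtain ⟨x', a, ha, e0, hx'⟩ := H27.VnC.rep hp hp2 hP A τ h2 hi ⟨π g, g, a1, rfl⟩
    have hx'A : x' ∉ A := fun h => hgA (e0 ▸ A.mul_mem h ha)
    obtain ⟨_, x, hx, rfl⟩ := x'
    have hxK : x ∉ K := fun h => hx'A ⟨x, h, rfl⟩
    have hxp : x ^ p = 1 := by
      have e1 := hfix (⟨π x, x, hx, rfl⟩ ^ p) ⟨_, b1 x hx, map_pow π x p⟩
      rw [map_pow, hx', inv_pow] at e1
      obtain ⟨n, hn⟩ := H27.VnC.root hp hp2 hP ((⟨π x, x, hx, rfl⟩ : ↥(H.map π)) ^ p)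
      rw [eq_inv_iff_mul_eq_one.1 e1.symm, one_pow] at hn
      have e2 : x ^ p ∈ M := (QuotientGroup.eq_one_iff _).1 (by
        have := congrArg Subtype.val hn.symm
        exact (map_pow π x p).trans this)
      obtain ⟨j, hj⟩ := b2 x hx hxK
      exact hone _ e2 j (by rw [← pow_mul, mul_comm, pow_mul, hj, one_pow])
    have hx1 : x ≠ 1 := fun h => hxK (h ▸ K.one_mem)
    have hnil : Group.IsNilpotent M := H23.thompson_prime (K := M) (R := zpowers x)
      (by rw [normalizer_eq_top]; exact le_top)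
      (by rw [Nat.card_zpowers, orderOf_eq_prime hxp hx1]; exact hp) (by
        refine eq_bot_iff.2 fun m hm => mem_bot.2 ?_
        have hc : Commute x m := mem_centralizer_iff.1 hm.2 x (mem_zpowers x)
        obtain ⟨j, hj⟩ := b2 (x * m) (H.mul_mem hx (hKH (hMK hm.1)))
          (fun h => hxK (by simpa using K.mul_mem h (K.inv_mem (hMK hm.1))))
        refine hone m hm.1 (j + 1) ?_
        have : (x * m) ^ p ^ (j + 1) = 1 := by rw [pow_succ, pow_mul, hj, one_pow]
        rwa [hc.mul_pow, pow_succ' p j, pow_mul x, hxp, one_pow, one_mul, ← pow_succ'] at this)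
    infer_instance
  haveI := hP.isNilpotent
  haveI : Group.IsSolvable (G ⧸ M) := by
    refine Group.isSolvable_of_ker_le_range (H.map π).subtype (Abelianization.of (G := G ⧸ M)) ?_
    rw [range_subtype, Abelianization.ker_of, hH, commutator_def, commutator_def, map_commutator,
      map_top_of_surjective π hsur]
  exact Group.isSolvable_of_ker_le_range M.subtype π (by rw [range_subtype, QuotientGroup.ker_mk'])

end H27.VnS
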