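import Cfsg.Agent.H20.PPrime

/-! The saturated subsystem `F_T(T ⋊ A)` over an arbitrary `T ≤ S` defined by a `p'`-group `A ≤ Aut_F(T)`
(`exists_autsub`). -/

set_option autoImplicit false

namespace H27

open Subgroup Equiv Cfsg H20

variable {Ω : Type*} [Group Ω] {S T : Subgroup Ω} {F : FusionSystem S} {p : ℕ} [Finite S] [Fact p.Prime]

theorem exists_autsub' (hS : IsPGroup p S) (hT : T ≤ S) {B : Subgroup (Perm Ω)} (hB : B ≤ AutF F T)
    (hI : AutK T T ≤ B) (hp : ∀ α ∈ B, PElt p α → α ∈ AutK T T) :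
    ∃ W : FusionSystem T, W.IsSaturated p ∧ Sub W F ∧ W.IsNormal T ∧ AutF W T = B := by
  have := fin_of_le hT
  obtain ⟨W, hW⟩ := exists_sub F T hT (fun P σ => ∃ α ∈ B, ∀ x ∈ P, σ x = α x)
    (fun _ ⟨α, a, b⟩ e => ⟨α, a, fun x hx => (e x hx).trans (b x hx)⟩)
    (fun hP hg => ⟨_, hI (cr_mem_AutK hg (le_normalizer hg)), fun x hx => (cr_apply (le_normalizer hg) (hP hx)).symm⟩)
    (fun _ _ _ _ _ ⟨α, a, b⟩ ⟨β, c, d⟩ e => ⟨β * α, mul_mem c a, fun x hx => by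
      rw [Perm.mul_apply, Perm.mul_apply, d _ (e x hx), b x hx]⟩)
    (fun h _ _ ⟨α, a, b⟩ => ⟨α⁻¹, inv_mem a, fun x hx => by
      rw [eq_comm, Perm.inv_eq_iff_eq, ← b _ (h.mem_img.1 hx), pm_apply_inv]⟩)
  have h1 : ∀ α ∈ B, Mor W T α := fun α a =>
    (hW _ _).2 ⟨AutF_mor hT (hB a), le_rfl, fun x hx => AutF_apply_mem (hB a) hx, α, a, fun _ _ => rfl⟩
  have h2 : AutF W T = B := by
    refine le_antisymm (fun α a => ?_) fun α a => (mem_AutF le_rfl).2 ⟨h1 α a, AutF_le_Supp (hB a)⟩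
    obtain ⟨-, -, -, β, b, e⟩ := (hW _ _).1 (AutF_mor le_rfl a)
    rwa [eq_of_Supp (AutF_le_Supp a) (AutF_le_Supp (hB b)) e]
  have h3 : W.IsNormal T := normal_iff.2 ⟨le_rfl, fun P σ h => by
    obtain ⟨-, a, -, β, b, e⟩ := (hW _ _).1 h
    exact ⟨β, AutF_le_Stab (hB b), (h1 β b).mono (sup_le a le_rfl), fun x hx => (e x hx).symm⟩⟩
  refine ⟨W, (sat_of_frat (hS.to_le hT) (sat_inner (hS.to_le hT)) (inner_finv h3) fun α a b => ?_).1,
    fun P σ h => ((hW _ _).1 h).1, h3, h2⟩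
  rw [AutF_inner le_rfl]
  exact hp α (h2 ▸ a) b

theorem exists_autsub (hS : IsPGroup p S) (hT : T ≤ S) {A : Subgroup (Perm Ω)} (hA : A ≤ AutF F T)
    (hq : ∀ α ∈ A, QElt p α) :
    ∃ W : FusionSystem T, W.IsSaturated p ∧ Sub W F ∧ W.IsNormal T ∧ AutF W T = A ⊔ AutK T T := by
  have := fin_of_le hT
  have := fin_of_le hA
  exact exists_autsub' hS hT (sup_le hA (AutK_le_AutF F hT hT)) le_sup_right fun α a b =>
    pElt_mem_sup (I := ⊥) (hA.trans AutF_le_normalizer_Inn)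
      ⟨bot_le, IsPGroup.of_bot, fun L _ h1 h2 x hx => (pElt_of_mem h2 hx).eq_one (hq x (h1 hx))⟩ bot_le
      le_normalizer_bot a b

end H27
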